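import Cfsg.Agent.ClassificationK.GTwoChev
import Cfsg.Agent.H357.EP.Inv27
import Cfsg.Agent.ChevalleyStructure.Good
import Cfsg.Agent.H209.EPX.Defs
import Cfsg.Agent.H129.FE.Grp

/-!
# S5745: `G₂(4)` is not a subgroup of `E₆(q)`, `²E₆(q)`, `F₄(q)`, `q` odd (helper545)

`E = X₁₀ X₁₁` (two long roots at 60 degrees) is elementary abelian of order 16 and all its involutions are conjugate
(`X₆`, `X₅` act on it as on the natural module of `SL₂(4)`), against `H357.EP.InE6.no_pure`.
-/

set_option autoImplicit false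
set_option linter.unusedSectionVars false

namespace Cfsg.Agent.H545.EX

open Cfsg Cfsg.Lie
open Cfsg.Agent.ChevalleyStructure.LaurentWord
open Cfsg.Agent.ChevalleyStructure.LaurentNH
open Cfsg.Agent.ClassificationK.GTwoChev Cfsg.Agent.ChevalleyStructure.SL2Hom

theorem ck_comm : (([(10,11),(6,11),(5,10)] : List (ℕ × ℕ)).all fun p =>
      checkEq 14 12 (col chevG2) [(p.1, 1, 1, 0), (p.2, 1, 0, 1)] [(p.2, 1, 0, 1), (p.1, 1, 1, 0)]) = true := by
  decide +kernel

theorem ck_six : checkEq 14 12 (col chevG2) [(6,1,1,0),(10,1,0,1)] [(10,1,0,1),(11,1,1,1),(6,1,1,0)] = true := by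
  decide +kernel

theorem ck_five : checkEq 14 12 (col chevG2) [(5,1,1,0),(11,1,0,1)] [(11,1,0,1),(10,1,1,1),(5,1,1,0)] = true := by
  decide +kernel

section

variable {F : Type*} [Field F]

/-- the root elements of the group -/
noncomputable def X (r : ℕ) (hr : r < chevG2.nroots) (t : F) : ↥(chevG2.group F) := ph r hr F (up t)

theorem mat_X (r : ℕ) (hr : r < chevG2.nroots) (t : F) : mat (X r hr t) = chevG2.x F r t := mat_up r hr t

theorem X_add (r : ℕ) (hr : r < chevG2.nroots) (t u : F) : X r hr (t + u) = X r hr t * X r hr u := by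
  unfold X
  rw [← map_mul]
  congr 1
  apply Subtype.ext
  change (!![1, t + u; 0, 1] : Matrix (Fin 2) (Fin 2) F) = !![1, t; 0, 1] * !![1, u; 0, 1]
  rw [Matrix.mul_fin_two]
  simp [add_comm]

theorem X_zero (r : ℕ) (hr : r < chevG2.nroots) : X r hr (0 : F) = 1 := by
  apply mat_injective
  rw [mat_X, mat_one]
  exact x_zero _ r

theorem X_neg (r : ℕ) (hr : r < chevG2.nroots) (t : F) : X r hr (-t) = (X r hr t)⁻¹ := by
  rw [eq_inv_iff_mul_eq_one, ← X_add, neg_add_cancel, X_zero]

theorem X_eq_one {r : ℕ} {hr : r < chevG2.nroots} {t : F} (h : X r hr t = 1) : t = 0 := by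
  have h1 := congrArg mat h
  rw [mat_X, mat_one] at h1
  exact Cfsg.Agent.ChevalleyStructure.Good.eq_zero_of_x_eq_one r hr
    (Cfsg.Agent.ChevalleyStructure.Good.goodAt_of_mem chevG2 (by simp) r hr) t h1

theorem X_comm {r s : ℕ} (hr : r < chevG2.nroots) (hs : s < chevG2.nroots)
    (h : (r, s) ∈ ([(10,11),(6,11),(5,10)] : List (ℕ × ℕ))) (t u : F) : X r hr t * X s hs u = X s hs u * X r hr t := by
  apply mat_injective
  rw [mat_mul, mat_mul, mat_X, mat_X]
  exact x_comm_of_check chevG2 colsOK (List.all_eq_true.1 ck_comm _ h) t u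

theorem h10 : 10 < chevG2.nroots := by decide
theorem h11 : 11 < chevG2.nroots := by decide
theorem h6 : 6 < chevG2.nroots := by decide
theorem h5 : 5 < chevG2.nroots := by decide

local notation "xa" => X 10 h10
local notation "xb" => X 11 h11
local notation "xc" => X 6 h6
local notation "xd" => X 5 h5

theorem ab (t u : F) : xa t * xb u = xb u * xa t := X_comm _ _ (by decide) t u

theorem cb (t u : F) : xc t * xb u = xb u * xc t := X_comm _ _ (by decide) t u

theorem da (t u : F) : xd t * xa u = xa u * xd t := X_comm _ _ (by decide) t u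

theorem ca (t u : F) : xc t * xa u = xa u * xb (t * u) * xc t := by
  by_cases ht : t = 0
  · rw [ht, zero_mul, X_zero, X_zero, one_mul, mul_one, mul_one]
  by_cases hu : u = 0
  · rw [hu, mul_zero, X_zero, X_zero, one_mul, mul_one, one_mul]
  apply mat_injective
  have h1 := wordMat_eq_of_checkEq chevG2 colsOK ht hu ck_six
  simp only [evW, List.map_cons, List.map_nil, ChevalleyDatum.wordMat, List.prod_cons, List.prod_nil,
      mul_one, evM_u, evM_t] at h1
  rw [mat_mul, mat_mul, mat_mul, mat_X, mat_X, mat_X, h1, ← mul_assoc]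
  congr 3
  simp [evM]

theorem db (t u : F) : xd t * xb u = xb u * xa (t * u) * xd t := by
  by_cases ht : t = 0
  · rw [ht, zero_mul, X_zero, X_zero, one_mul, mul_one, mul_one]
  by_cases hu : u = 0
  · rw [hu, mul_zero, X_zero, X_zero, one_mul, mul_one, one_mul]
  apply mat_injective
  have h1 := wordMat_eq_of_checkEq chevG2 colsOK ht hu ck_five
  simp only [evW, List.map_cons, List.map_nil, ChevalleyDatum.wordMat, List.prod_cons, List.prod_nil,
      mul_one, evM_u, evM_t] at h1
  rw [mat_mul, mat_mul, mat_mul, mat_X, mat_X, mat_X, h1, ← mul_assoc]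
  congr 3
  simp [evM]

theorem conj_c (u t s : F) : xc u * (xa t * xb s) * (xc u)⁻¹ = xa t * xb (s + u * t) := by
  rw [mul_inv_eq_iff_eq_mul, ← mul_assoc, ca, mul_assoc (xa t * xb (u * t)), cb, ← mul_assoc, add_comm s, X_add,
    ← mul_assoc (xa t)]

theorem conj_d (u t s : F) : xd u * (xa t * xb s) * (xd u)⁻¹ = xa (t + u * s) * xb s := by
  rw [mul_inv_eq_iff_eq_mul, ab, ← mul_assoc, db, mul_assoc (xb s * xa (u * s)), da, ← mul_assoc, add_comm t, X_add,
    mul_assoc (xa (u * s)) (xa t), ab t s, ← mul_assoc (xa (u * s)), ab (u * s) s]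

theorem isConj_one {t s : F} (h : ¬ (t = 0 ∧ s = 0)) : IsConj (xa (1 : F) * xb 1) (xa t * xb s) := by
  have h1 : ∀ t s s' : F, t ≠ 0 → IsConj (xa t * xb s) (xa t * xb s') := by
    intro t s s' ht
    refine isConj_iff.2 ⟨xc ((s' - s) / t), ?_⟩
    rw [conj_c]
    congr 2
    field_simp
    ring
  have h2 : ∀ t t' s : F, s ≠ 0 → IsConj (xa t * xb s) (xa t' * xb s) := by
    intro t t' s hs
    refine isConj_iff.2 ⟨xd ((t' - t) / s), ?_⟩
    rw [conj_d]
    congr 2
    field_simp
    ring
  by_cases ht : t = 0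
  · have hs : s ≠ 0 := fun hs => h ⟨ht, hs⟩
    exact (h1 1 1 s one_ne_zero).trans (h2 1 t s hs)
  · exact (h2 1 t 1 one_ne_zero).trans (h1 t 1 s ht)

/-- the homomorphism onto `E` -/
noncomputable def eh (F : Type*) [Field F] : Multiplicative (F × F) →* ↥(chevG2.group F) where
  toFun p := xa (Multiplicative.toAdd p).1 * xb (Multiplicative.toAdd p).2
  map_one' := by
    show xa (0 : F) * xb 0 = 1
    rw [X_zero, X_zero, one_mul]
  map_mul' p p' := by
    obtain ⟨t, s⟩ := p
    obtain ⟨t', s'⟩ := p'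
    show xa (t + t') * xb (s + s') = (xa t * xb s) * (xa t' * xb s')
    rw [X_add, X_add, mul_assoc, mul_assoc, ← mul_assoc (xa t') (xb s), ab t' s]
    simp only [mul_assoc]

theorem eh_injective : Function.Injective (eh F) := by
  rw [injective_iff_map_eq_one]
  rintro ⟨t, s⟩ h
  change xa t * xb s = 1 at h
  have ht : t = 0 := by
    have h1 := conj_c 1 t s
    rw [h, mul_one, mul_inv_cancel, one_mul, X_add, ← mul_assoc, h, one_mul] at h1
    exact X_eq_one h1.symm
  rw [ht, X_zero, one_mul] at h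
  have hs := X_eq_one h
  rw [ht, hs]
  rfl

theorem eh_sq (h2 : (2 : F) = 0) (x : Multiplicative (F × F)) : eh F x * eh F x = 1 := by
  rw [← map_mul]
  have : x * x = 1 := by
    obtain ⟨t, s⟩ := x
    show Multiplicative.ofAdd ((t + t, s + s) : F × F) = 1
    rw [← two_mul, ← two_mul, h2, zero_mul, zero_mul]
    rfl
  rw [this, map_one]

theorem eh_conj (x : Multiplicative (F × F)) (h : eh F x ≠ 1) : IsConj (xa (1 : F) * xb 1) (eh F x) := by
  refine isConj_one fun hts => h ?_
  show X 10 h10 _ * X 11 h11 _ = 1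
  rw [hts.1, hts.2, X_zero, X_zero, one_mul]

theorem card_range [Fintype F] : Nat.card (eh F).range = Fintype.card F * Fintype.card F := by
  rw [← Nat.card_congr (MonoidHom.ofInjective (eh_injective (F := F))).toEquiv, Nat.card_congr Multiplicative.toAdd,
      Nat.card_prod, Nat.card_eq_fintype_card]

end

/-- **`G₂(4)` is not a subgroup of `E₆(q)`, `²E₆(q)`, `F₄(q)`, `q` odd** -/
theorem not_inE6 {F : Type*} [Field F] [Fintype F] (h4 : Fintype.card F = 4) {T : Type*} [Group T]
    (e : T ≃* ↥(chevG2.group F)) (h : H357.EP.InE6 T) : False := by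
  have h' : H357.EP.InE6 ↥(chevG2.group F) := h.mono e.symm.toMonoidHom e.symm.injective
  have h2 : (2 : F) = 0 := by
    have h0 : ((4 : ℕ) : F) = 0 := by
      rw [← h4]
      exact FiniteField.cast_card_eq_zero F
    have : (2 : F) * 2 = 0 := by
      rw [← h0]; norm_num
    exact mul_self_eq_zero.1 this
  refine h'.no_pure (eh F).range ?_ ?_ (u := X 10 h10 1 * X 11 h11 1) ?_
  · rintro _ ⟨x, rfl⟩
    exact eh_sq h2 x
  · rw [card_range, h4]
  · rintro _ ⟨x, rfl⟩ hne
    exact eh_conj x hne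

end Cfsg.Agent.H545.EX
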