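import Mathlib

/-!
# Counting fixed points of Sylow subgroups and elements (helper545)

`L` acts on `Ω`, `o` is a fixed point.
* `sylow_count` : if every `w ≠ o` is fixed by at most one Sylow `r`-subgroup, the number of points `w ≠ o` fixed by one
  is `|Syl_r| * k` with `k + 1 ≡ |Ω|` mod `r`;
* `sum_fix` : `∑_{x ∈ E} |Fix x ∖ {o}| = ∑_{w ≠ o} |E ∩ L_w|`.
-/

set_option autoImplicit false

namespace Cfsg.Agent.H545.EX.Cnt

open MulAction
open scoped Pointwise

variable {L Ω : Type*} [Group L] [MulAction L Ω]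

theorem mem_smul_sylow {r : ℕ} {P : Sylow r L} {g y : L} : y ∈ g • P ↔ g⁻¹ * y * g ∈ P := by
  change y ∈ (MulAut.conj g • (P : Subgroup L)) ↔ _
  rw [Subgroup.mem_pointwise_smul_iff_inv_smul_mem]
  have : (MulAut.conj g)⁻¹ • y = g⁻¹ * y * g := by
    rw [← map_inv, MulAut.smul_def, MulAut.conj_apply, inv_inv]
  rw [this]
  rfl

theorem sylow_count [Finite L] [Finite Ω] {r : ℕ} [Fact r.Prime] (o : Ω) (ho : ∀ g : L, g • o = o)
    (huniq : ∀ w, w ≠ o → ∀ P P' : Sylow r L, (P : Subgroup L) ≤ stabilizer L w → (P' : Subgroup L) ≤ stabilizer L w →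
      P = P') :
    ∃ k, (k + 1) % r = Nat.card Ω % r ∧
      {w : Ω | w ≠ o ∧ ∃ P : Sylow r L, (P : Subgroup L) ≤ stabilizer L w}.ncard = Nat.card (Sylow r L) * k := by
  classical
  obtain ⟨P₀⟩ : Nonempty (Sylow r L) := inferInstance
  let S : Set Ω := {w | w ≠ o ∧ (P₀ : Subgroup L) ≤ stabilizer L w}
  refine ⟨S.ncard, ?_, ?_⟩
  · have h1 := P₀.2.card_modEq_card_fixedPoints (α := Ω)
    have h2 : fixedPoints (P₀ : Subgroup L) Ω = insert o S := by
      ext w
      rw [mem_fixedPoints, Set.mem_insert_iff]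
      constructor
      · intro h
        by_cases hw : w = o
        · exact Or.inl hw
        · exact Or.inr ⟨hw, fun g hg => mem_stabilizer_iff.2 (h ⟨g, hg⟩)⟩
      · rintro (rfl | ⟨-, h⟩)
        · rintro ⟨g, hg⟩
          exact ho g
        · rintro ⟨g, hg⟩
          exact mem_stabilizer_iff.1 (h hg)
    have h3 : Nat.card (fixedPoints (P₀ : Subgroup L) Ω) = S.ncard + 1 := by
      rw [Nat.card_coe_set_eq, h2, Set.ncard_insert_of_notMem (fun h => h.1 rfl) (Set.toFinite _)]
    rw [← h3]
    exact h1.symm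
  · choose g hg using fun P : Sylow r L => exists_smul_eq L P₀ P
    have hst : ∀ (P : Sylow r L) (w : Ω), (P₀ : Subgroup L) ≤ stabilizer L w →
        (P : Subgroup L) ≤ stabilizer L (g P • w) := by
      intro P w hw y hy
      have h2 : (g P)⁻¹ * y * g P ∈ P₀ := by
        rw [← mem_smul_sylow, hg]
        exact hy
      have h3 := mem_stabilizer_iff.1 (hw h2)
      rw [mem_stabilizer_iff]
      rw [mul_smul, mul_smul, inv_smul_eq_iff] at h3
      exact h3
    have hinj : Function.Injective (fun p : Sylow r L × S => g p.1 • (p.2 : Ω)) := by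
      rintro ⟨P, w⟩ ⟨P', w'⟩ e
      have e' : g P • (w : Ω) = g P' • (w' : Ω) := e
      have hne : g P • (w : Ω) ≠ o := by
        intro h
        have h1 : (w : Ω) = (g P)⁻¹ • o := by rw [← h, inv_smul_smul]
        rw [ho] at h1
        exact w.2.1 h1
      have h1 : P = P' := huniq _ hne P P' (hst P w w.2.2) (by rw [e']; exact hst P' w' w'.2.2)
      subst h1
      exact Prod.ext rfl (Subtype.ext (smul_left_cancel _ e'))
    have himg : {w : Ω | w ≠ o ∧ ∃ P : Sylow r L, (P : Subgroup L) ≤ stabilizer L w} =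
        Set.range (fun p : Sylow r L × S => g p.1 • (p.2 : Ω)) := by
      ext w
      constructor
      · rintro ⟨hw, P, hP⟩
        refine ⟨⟨P, ⟨(g P)⁻¹ • w, ?_, ?_⟩⟩, smul_inv_smul _ _⟩
        · intro h
          rw [inv_smul_eq_iff, ho] at h
          exact hw h
        · intro y hy
          rw [mem_stabilizer_iff]
          have h1 : g P * y * (g P)⁻¹ ∈ P := by
            have h2 : g P * y * (g P)⁻¹ ∈ g P • P₀ := by
              rw [mem_smul_sylow]
              have : (g P)⁻¹ * (g P * y * (g P)⁻¹) * g P = y := by group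
              rw [this]
              exact hy
            rwa [hg] at h2
          have h2 := mem_stabilizer_iff.1 (hP h1)
          rw [mul_smul, mul_smul] at h2
          rw [eq_inv_smul_iff]
          exact h2
      · rintro ⟨⟨P, w⟩, rfl⟩
        refine ⟨?_, P, hst P w w.2.2⟩
        intro h
        have h' : g P • (w : Ω) = o := h
        have h1 : (w : Ω) = (g P)⁻¹ • o := by rw [← h', inv_smul_smul]
        rw [ho] at h1
        exact w.2.1 h1
    rw [himg, ← Set.image_univ, Set.ncard_image_of_injective _ hinj, Set.ncard_univ, Nat.card_prod, Nat.card_coe_set_eq]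

theorem sum_fix [Fintype Ω] [DecidableEq Ω] (E : Finset L) (o : Ω) :
    ∑ x ∈ E, {w : Ω | w ≠ o ∧ x • w = w}.ncard =
      ∑ w ∈ Finset.univ.erase o, {x : L | x ∈ stabilizer L w ∧ x ∈ E}.ncard := by
  classical
  have h1 : ∀ x : L, {w : Ω | w ≠ o ∧ x • w = w}.ncard =
      (Finset.bipartiteAbove (fun (x : L) (w : Ω) => x • w = w) (Finset.univ.erase o) x).card := by
    intro x
    rw [← Set.ncard_coe_finset]
    congr 1
    ext w
    simp [Finset.bipartiteAbove]
  have h2 : ∀ w : Ω, {x : L | x ∈ stabilizer L w ∧ x ∈ E}.ncard =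
      (Finset.bipartiteBelow (fun (x : L) (w : Ω) => x • w = w) E w).card := by
    intro w
    rw [← Set.ncard_coe_finset]
    congr 1
    ext x
    simp [Finset.bipartiteBelow, mem_stabilizer_iff, and_comm]
  rw [Finset.sum_congr rfl fun x _ => h1 x, Finset.sum_congr rfl fun w _ => h2 w]
  exact Finset.sum_card_bipartiteAbove_eq_sum_card_bipartiteBelow _

end Cfsg.Agent.H545.EX.Cnt
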