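import Cfsg.Agent.H417.EP.ElevenCount

/-!
# S5745, T-bounds for `T = L₂(q)`: elements of orders 2 and 3 (helper545)
-/

set_option autoImplicit false
set_option linter.unusedSectionVars false

namespace Cfsg.Agent.H545.EX.LTwo

open Subgroup Matrix
open Cfsg.Agent.H417.EP.Eleven (D)
open Cfsg.Agent.ClassicalGeometry.AutPSL.Root

variable {F : Type*} [Field F] [Fintype F]

theorem card_quad (t : F) : {a : F | a * (t - a) = 1}.ncard ≤ 2 := by
  classical
  rcases {a : F | a * (t - a) = 1}.eq_empty_or_nonempty with h | ⟨a₁, h1⟩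
  · rw [h, Set.ncard_empty]; exact Nat.zero_le _
  · have h2 : {a : F | a * (t - a) = 1} ⊆ {a₁, t - a₁} := by
      intro a ha
      have ha' : a * (t - a) = 1 := ha
      have h1' : a₁ * (t - a₁) = 1 := h1
      have h3 : (a - a₁) * (a - (t - a₁)) = 0 := by linear_combination h1' - ha'
      rcases mul_eq_zero.1 h3 with h | h
      · left; exact sub_eq_zero.1 h
      · right; exact sub_eq_zero.1 h
    exact (Set.ncard_le_ncard h2 (Set.toFinite _)).trans (Set.ncard_insert_le _ _ |>.trans (by rw [Set.ncard_singleton]))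

theorem ncard_tr (t : F) : {A : Matrix.SpecialLinearGroup (Fin 2) F | A 0 0 + A 1 1 = t}.ncard ≤
    Fintype.card F ^ 2 + Fintype.card F := by
  classical
  have hdet : ∀ A : Matrix.SpecialLinearGroup (Fin 2) F, A 0 0 * A 1 1 - A 0 1 * A 1 0 = 1 := by
    intro A
    have hd := A.det_coe
    rwa [Matrix.det_fin_two] at hd
  have hext : ∀ A B : Matrix.SpecialLinearGroup (Fin 2) F, A 0 0 = B 0 0 → A 0 1 = B 0 1 → A 1 0 = B 1 0 →
      A 1 1 = B 1 1 → A = B := by
    intro A B h1 h2 h3 h4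
    apply Subtype.ext
    ext i j
    fin_cases i <;> fin_cases j
    · exact h1
    · exact h2
    · exact h3
    · exact h4
  have h1 : {A : Matrix.SpecialLinearGroup (Fin 2) F | A 0 0 + A 1 1 = t ∧ A 0 1 ≠ 0}.ncard ≤
      Fintype.card F * (Fintype.card F - 1) := by
    have h2 : ((Set.univ : Set F) ×ˢ ({0}ᶜ : Set F)).ncard = Fintype.card F * (Fintype.card F - 1) := by
      rw [Set.ncard_prod, Set.ncard_univ, Nat.card_eq_fintype_card, Set.ncard_compl, Set.ncard_singleton,
        Nat.card_eq_fintype_card]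
    rw [← h2]
    refine Set.ncard_le_ncard_of_injOn (fun A => (A 0 0, A 0 1)) ?_ ?_ (Set.toFinite _)
    · rintro A ⟨_, h⟩
      exact ⟨Set.mem_univ _, h⟩
    · rintro A ⟨ha, hb⟩ B ⟨ha', hb'⟩ e
      simp only [Prod.mk.injEq] at e
      obtain ⟨e1, e2⟩ := e
      have e3 : A 1 1 = B 1 1 := by
        have : A 0 0 + A 1 1 = B 0 0 + B 1 1 := ha.trans ha'.symm
        rw [e1] at this
        exact add_left_cancel this
      refine hext A B e1 e2 ?_ e3
      apply mul_left_cancel₀ hb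
      have h3 := hdet A
      have h4 := hdet B
      rw [← e1, ← e3, ← e2] at h4
      linear_combination h4 - h3
  have h2 : {A : Matrix.SpecialLinearGroup (Fin 2) F | A 0 0 + A 1 1 = t ∧ A 0 1 = 0}.ncard ≤ 2 * Fintype.card F := by
    have h3 : ({a : F | a * (t - a) = 1} ×ˢ (Set.univ : Set F)).ncard ≤ 2 * Fintype.card F := by
      rw [Set.ncard_prod, Set.ncard_univ, Nat.card_eq_fintype_card]
      exact Nat.mul_le_mul_right _ (card_quad t)
    refine le_trans ?_ h3
    refine Set.ncard_le_ncard_of_injOn (fun A => (A 0 0, A 1 0)) ?_ ?_ (Set.toFinite _)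
    · rintro A ⟨ha, hb⟩
      refine ⟨?_, Set.mem_univ _⟩
      show A 0 0 * (t - A 0 0) = 1
      have h4 := hdet A
      rw [hb] at h4
      rw [← ha]
      linear_combination h4
    · rintro A ⟨ha, hb⟩ B ⟨ha', hb'⟩ e
      simp only [Prod.mk.injEq] at e
      obtain ⟨e1, e2⟩ := e
      refine hext A B e1 (hb.trans hb'.symm) e2 ?_
      have : A 0 0 + A 1 1 = B 0 0 + B 1 1 := ha.trans ha'.symm
      rw [e1] at this
      exact add_left_cancel this
  have h3 : {A : Matrix.SpecialLinearGroup (Fin 2) F | A 0 0 + A 1 1 = t} =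
      {A : Matrix.SpecialLinearGroup (Fin 2) F | A 0 0 + A 1 1 = t ∧ A 0 1 ≠ 0} ∪
      {A : Matrix.SpecialLinearGroup (Fin 2) F | A 0 0 + A 1 1 = t ∧ A 0 1 = 0} := by
    ext A
    constructor
    · intro h
      by_cases hb : A 0 1 = 0
      · exact Or.inr ⟨h, hb⟩
      · exact Or.inl ⟨h, hb⟩
    · rintro (h | h)
      · exact h.1
      · exact h.1
  rw [h3]
  refine (Set.ncard_union_le _ _).trans ((Nat.add_le_add h1 h2).trans ?_)
  have hq : 1 ≤ Fintype.card F := Fintype.card_pos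
  obtain ⟨m, hm⟩ : ∃ m, Fintype.card F = m + 1 := ⟨Fintype.card F - 1, by omega⟩
  rw [hm, Nat.add_sub_cancel]
  nlinarith

theorem scalar_iff (A : Matrix.SpecialLinearGroup (Fin 2) F) : pr A = 1 ↔ A 0 1 = 0 ∧ A 1 0 = 0 ∧ A 0 0 = A 1 1 := by
  rw [pr_eq_one_iff, Matrix.SpecialLinearGroup.mem_center_iff]
  constructor
  · rintro ⟨r, -, h⟩
    refine ⟨?_, ?_, ?_⟩
    · have := congrFun (congrFun h 0) 1
      simpa using this.symm
    · have := congrFun (congrFun h 1) 0
      simpa using this.symm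
    · have h0 := congrFun (congrFun h 0) 0
      have h1 := congrFun (congrFun h 1) 1
      simp at h0 h1
      rw [← h0, ← h1]
  · rintro ⟨h1, h2, h3⟩
    refine ⟨A 0 0, ?_, ?_⟩
    · have hd := A.det_coe
      rw [det_fin_two] at hd
      rw [h1, ← h3] at hd
      simp only [Fintype.card_fin]
      rw [pow_two]
      linear_combination hd
    · ext i j
      fin_cases i <;> fin_cases j
      · simp
      · simpa using h1.symm
      · simpa using h2.symm
      · simpa using h3

theorem pr_neg (A : Matrix.SpecialLinearGroup (Fin 2) F) : pr (-A) = pr A := by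
  have h1 : pr (-1 : Matrix.SpecialLinearGroup (Fin 2) F) = 1 := by
    rw [scalar_iff]
    refine ⟨?_, ?_, ?_⟩ <;> simp
  have h2 : -A = (-1) * A := by rw [neg_mul, one_mul]
  rw [h2, map_mul, h1, one_mul]

theorem lift_two {x : Matrix.ProjectiveSpecialLinearGroup (Fin 2) F} (hx : x ∈ D _ 2) :
    ∃ A : Matrix.SpecialLinearGroup (Fin 2) F, A 0 0 + A 1 1 = 0 ∧ pr A = x := by
  obtain ⟨h1, h2⟩ := hx
  obtain ⟨A, rfl⟩ := pr_surjective x
  have hd := A.det_coe
  rw [Matrix.det_fin_two] at hd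
  refine ⟨A, ?_, rfl⟩
  by_contra ht
  apply h1
  rw [← map_pow, scalar_iff] at h2
  have m : ∀ i j, (A ^ 2) i j = (A.1 * A.1) i j := by
    intro i j; rw [Matrix.SpecialLinearGroup.coe_pow, pow_two]
  rw [m, m, m, m] at h2
  simp only [Matrix.mul_apply, Fin.sum_univ_two] at h2
  obtain ⟨q1, q2, q3⟩ := h2
  rw [scalar_iff]
  refine ⟨?_, ?_, ?_⟩
  · have : (A 0 0 + A 1 1) * A 0 1 = 0 := by linear_combination q1
    exact (mul_eq_zero.1 this).resolve_left ht
  · have : (A 0 0 + A 1 1) * A 1 0 = 0 := by linear_combination q2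
    exact (mul_eq_zero.1 this).resolve_left ht
  · have : (A 0 0 + A 1 1) * (A 0 0 - A 1 1) = 0 := by linear_combination q3
    exact sub_eq_zero.1 ((mul_eq_zero.1 this).resolve_left ht)

theorem lift_three {x : Matrix.ProjectiveSpecialLinearGroup (Fin 2) F} (hx : x ∈ D _ 3) :
    ∃ A : Matrix.SpecialLinearGroup (Fin 2) F, A 0 0 + A 1 1 = 1 ∧ pr A = x := by
  obtain ⟨h1, h3⟩ := hx
  obtain ⟨A, rfl⟩ := pr_surjective x
  have hd := A.det_coe
  rw [Matrix.det_fin_two] at hd
  have ht : (A 0 0 + A 1 1) ^ 2 - 1 = 0 := by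
    by_contra ht
    apply h1
    rw [← map_pow, scalar_iff] at h3
    have m : ∀ i j, (A ^ 3) i j = (A.1 * A.1 * A.1) i j := by
      intro i j; rw [Matrix.SpecialLinearGroup.coe_pow, pow_succ, pow_two]
    rw [m, m, m, m] at h3
    simp only [Matrix.mul_apply, Fin.sum_univ_two] at h3
    obtain ⟨q1, q2, q3⟩ := h3
    rw [scalar_iff]
    refine ⟨?_, ?_, ?_⟩
    · have : ((A 0 0 + A 1 1) ^ 2 - 1) * A 0 1 = 0 := by linear_combination q1 + A 0 1 * hd
      exact (mul_eq_zero.1 this).resolve_left ht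
    · have : ((A 0 0 + A 1 1) ^ 2 - 1) * A 1 0 = 0 := by linear_combination q2 + A 1 0 * hd
      exact (mul_eq_zero.1 this).resolve_left ht
    · have : ((A 0 0 + A 1 1) ^ 2 - 1) * (A 0 0 - A 1 1) = 0 := by
        linear_combination q3 + (A 0 0 - A 1 1) * hd
      exact sub_eq_zero.1 ((mul_eq_zero.1 this).resolve_left ht)
  have ht' : (A 0 0 + A 1 1 - 1) * (A 0 0 + A 1 1 + 1) = 0 := by linear_combination ht
  rcases mul_eq_zero.1 ht' with h | h
  · exact ⟨A, sub_eq_zero.1 h, rfl⟩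
  · refine ⟨-A, ?_, pr_neg A⟩
    show (-A.1) 0 0 + (-A.1) 1 1 = 1
    rw [Matrix.neg_apply, Matrix.neg_apply]
    linear_combination -h

theorem two_le : (D (Matrix.ProjectiveSpecialLinearGroup (Fin 2) F) 2).ncard ≤
    Fintype.card F ^ 2 + Fintype.card F := by
  have h1 : D (Matrix.ProjectiveSpecialLinearGroup (Fin 2) F) 2 ⊆
      pr '' {A : Matrix.SpecialLinearGroup (Fin 2) F | A 0 0 + A 1 1 = 0} := fun x hx => by
    obtain ⟨A, hA, e⟩ := lift_two hx
    exact ⟨A, hA, e⟩
  exact (Set.ncard_le_ncard h1 (Set.toFinite _)).trans ((Set.ncard_image_le (Set.toFinite _)).trans (ncard_tr 0))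

theorem three_le : (D (Matrix.ProjectiveSpecialLinearGroup (Fin 2) F) 3).ncard ≤
    Fintype.card F ^ 2 + Fintype.card F := by
  have h1 : D (Matrix.ProjectiveSpecialLinearGroup (Fin 2) F) 3 ⊆
      pr '' {A : Matrix.SpecialLinearGroup (Fin 2) F | A 0 0 + A 1 1 = 1} := fun x hx => by
    obtain ⟨A, hA, e⟩ := lift_three hx
    exact ⟨A, hA, e⟩
  exact (Set.ncard_le_ncard h1 (Set.toFinite _)).trans ((Set.ncard_image_le (Set.toFinite _)).trans (ncard_tr 1))

end Cfsg.Agent.H545.EX.LTwo
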