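import Cfsg.Agent.H545.EX.LTwoAdm
import Cfsg.Agent.H545.EX.LTwoCnt
import Cfsg.Agent.H417.EP.Base
import Cfsg.Agent.H419.EP.Soc
import Cfsg.Agent.S0813
import Cfsg.Agent.TwoFusion.SLTwoFacts

/-!
# S5745, T-bounds: `T = L₂(25)` (helper545)

`index_le` : `|Q : A| ≤ 6650979402 < 2 ^ 33` if `A` has socle `PSL₂(25)`.
-/

set_option autoImplicit false

namespace Cfsg.Agent.H545.EX.LTwo

open Subgroup Matrix Cfsg.Agent.H417.EP
open Cfsg.Agent.H284
open Cfsg.Agent.H417.EP.Eleven (D)

/-- commutators are inner if the inner automorphisms have index 4 -/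
theorem out_four {L : Type*} [Group L] [Finite L] (hc : ∀ z : L, (∀ x, z * x = x * z) → z = 1)
    (h : Nat.card (MulAut L) = 2 ^ 2 * Nat.card L) (α β : MulAut L) :
    α * β * α⁻¹ * β⁻¹ ∈ (MulAut.conj : L →* MulAut L).range := by
  have hinj : Function.Injective (MulAut.conj : L →* MulAut L) := by
    rw [injective_iff_map_eq_one]
    intro z hz
    apply hc
    intro x
    have h1 := DFunLike.congr_fun hz x
    rw [MulAut.conj_apply, MulAut.one_apply, mul_inv_eq_iff_eq_mul] at h1
    exact h1
  have h1 : Nat.card (MulAut.conj : L →* MulAut L).range = Nat.card L :=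
    (Nat.card_congr (MonoidHom.ofInjective hinj).toEquiv).symm
  have h2 : (MulAut.conj : L →* MulAut L).range.index = 2 ^ 2 := by
    have h3 := (MulAut.conj : L →* MulAut L).range.card_mul_index
    rw [h1, h, mul_comm (2 ^ 2)] at h3
    exact Nat.eq_of_mul_eq_mul_left Nat.card_pos h3
  have hn : (MulAut.conj : L →* MulAut L).range.Normal := by
    constructor
    rintro _ ⟨z, rfl⟩ φ
    refine ⟨φ z, ?_⟩
    apply MulEquiv.ext
    intro x
    simp [MulAut.conj_apply]
  have : Fact (Nat.Prime 2) := ⟨Nat.prime_two⟩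
  have h4 : IsMulCommutative (MulAut L ⧸ (MulAut.conj : L →* MulAut L).range) :=
    IsPGroup.isMulCommutative_of_card_eq_prime_sq (p := 2) h2
  have h5 : QuotientGroup.mk' (MulAut.conj : L →* MulAut L).range (α * β * α⁻¹ * β⁻¹) = 1 := by
    rw [map_mul, map_mul, map_mul, map_inv, map_inv,
      h4.is_comm.comm (QuotientGroup.mk' (MulAut.conj : L →* MulAut L).range α)
        (QuotientGroup.mk' (MulAut.conj : L →* MulAut L).range β)]
    group
  exact (QuotientGroup.eq_one_iff _).1 h5

variable {F : Type*} [Field F] [Fintype F]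

theorem card_25 (hF : Fintype.card F = 25) : Nat.card (ProjectiveSpecialLinearGroup (Fin 2) F) = 7800 := by
  have h1 := ClassicalGeometry.PSL2Basic.card_PSL2_odd (F := F) (by rw [hF]; decide)
  rw [hF] at h1
  omega

theorem simple_25 (hF : Fintype.card F = 25) : IsSimpleGroup (ProjectiveSpecialLinearGroup (Fin 2) F) :=
  Cfsg.Agent.TwoFusion.SLTwoFacts.isSimpleGroup_psl (by rw [hF]; norm_num)

theorem ncomm_25 (hF : Fintype.card F = 25) : ∃ a b : ProjectiveSpecialLinearGroup (Fin 2) F, a * b ≠ b * a := by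
  have := simple_25 hF
  by_contra hcon
  push Not at hcon
  let _ : CommGroup (ProjectiveSpecialLinearGroup (Fin 2) F) := { (inferInstance : Group _) with mul_comm := hcon }
  have h1 := (IsSimpleGroup.prime_card (α := ProjectiveSpecialLinearGroup (Fin 2) F))
  rw [card_25 hF] at h1
  exact absurd h1 (by norm_num)

theorem card_aut_25 (hF : Fintype.card F = 25) :
    Nat.card (MulAut (ProjectiveSpecialLinearGroup (Fin 2) F)) = 2 ^ 2 * 7800 := by
  have : Fact (Nat.Prime 5) := ⟨by norm_num⟩
  rw [Cfsg.Agent.S0813.result 5 2 (by norm_num) (by rw [hF]; norm_num) 2 le_rfl (fun _ => by norm_num),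
    ClassicalGeometry.PSL2Basic.card_PGL2, hF]
  norm_num

variable {Q : Type*} [Group Q] [Finite Q] {A : Subgroup Q} {Γ : Subgroup (MulAut Q)}

/-- **The point stabiliser has socle `PSL₂(25)`.** -/
theorem index_le (hF : Fintype.card F = 25) (h : EPT A Γ) {N : Subgroup Q} (hNA : N ≤ A)
    (hN : ∀ a ∈ A, ∀ n ∈ N, a * n * a⁻¹ ∈ N) (e : N ≃* ProjectiveSpecialLinearGroup (Fin 2) F)
    (hcent : ∀ a ∈ A, (∀ n ∈ N, a * n = n * a) → a = 1) : A.index ≤ 6650979402 := by
  classical
  have := simple_25 hF
  have hna := ncomm_25 hF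
  have : Fact (Nat.Prime 5) := ⟨by norm_num⟩
  have : CharP F 5 := charP_of_card_eq_prime_pow (f := 2) (by rw [hF]; norm_num)
  have hz : ∀ z : ProjectiveSpecialLinearGroup (Fin 2) F, (∀ x, z * x = x * z) → z = 1 := by
    intro z hz
    have h1 : z ∈ center (ProjectiveSpecialLinearGroup (Fin 2) F) := mem_center_iff.2 fun g => (hz g).symm
    rcases (inferInstance : (center (ProjectiveSpecialLinearGroup (Fin 2) F)).Normal).eq_bot_or_eq_top with h2 | h2
    · rwa [h2, mem_bot] at h1
    · exfalso
      obtain ⟨a, b, hab⟩ := hna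
      have h3 : b ∈ center (ProjectiveSpecialLinearGroup (Fin 2) F) := by rw [h2]; exact mem_top b
      exact hab (mem_center_iff.1 h3 a)
  have hOut := out_four hz (by rw [card_aut_25 hF, card_25 hF])
  have hi : Inv A Γ (emb e) := base_inv h hNA hN e hcent
  have hne : ∀ x, x ∉ A → tr (emb e) A x ≠ ⊥ := fun x hx => base_tr h hNA hN hna e hcent hOut hx
  have : Fintype (ProjectiveSpecialLinearGroup (Fin 2) F) := Fintype.ofFinite _
  have hcard : Fintype.card (ProjectiveSpecialLinearGroup (Fin 2) F) = 7800 := by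
    rw [← Nat.card_eq_fintype_card, card_25 hF]
  have hm : {K : Subgroup (ProjectiveSpecialLinearGroup (Fin 2) F) | Adm K}.ncard ≤ 852800 := by
    refine (ncard_adm 5 Nat.prime_two (by rw [hF]; norm_num) (fun h => by norm_num at h) hna).trans ?_
    have h1 := two_le (F := F)
    have h2 := three_le (F := F)
    rw [hF] at h1 h2
    have h3 : Nat.card (Sylow 5 (ProjectiveSpecialLinearGroup (Fin 2) F)) ≤ 7800 := by
      obtain ⟨P⟩ : Nonempty (Sylow 5 (ProjectiveSpecialLinearGroup (Fin 2) F)) := inferInstance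
      refine (Nat.le_of_dvd (Nat.pos_of_ne_zero Subgroup.index_ne_zero_of_finite) P.card_dvd_index).trans ?_
      rw [← card_25 hF]
      exact Nat.le_of_dvd Nat.card_pos (Subgroup.index_dvd_card _)
    have h4 := Nat.mul_le_mul h1 (Nat.add_le_add h1 h2)
    omega
  have h1 := weight_bound h hi hne (fun t => if t = 1 then 0 else 1) (if_pos rfl) (c := 1) (W := 7799) (m := 852800)
    (fun K hK => by
      obtain ⟨y, hy, hy1⟩ : ∃ y ∈ K, y ≠ 1 := by
        by_contra hcon
        push Not at hcon
        exact hK.ne_bot ((Subgroup.eq_bot_iff_forall _).2 hcon)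
      have h5 : (if y ∈ K then (if y = 1 then 0 else 1) else 0) ≤
          ∑ t : ProjectiveSpecialLinearGroup (Fin 2) F, if t ∈ K then (if t = 1 then 0 else 1) else 0 :=
        Finset.single_le_sum (f := fun t : ProjectiveSpecialLinearGroup (Fin 2) F =>
          if t ∈ K then (if t = 1 then 0 else 1) else 0) (fun _ _ => Nat.zero_le _) (Finset.mem_univ y)
      rw [if_pos hy, if_neg hy1] at h5
      convert h5) (by
      have h5 : (∑ t : ProjectiveSpecialLinearGroup (Fin 2) F, if t = 1 then 0 else 1) + 1 = 7800 := by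
        rw [← hcard, ← Finset.card_univ, Finset.card_eq_sum_ones]
        have h6 : (∑ t : ProjectiveSpecialLinearGroup (Fin 2) F, if t = 1 then 1 else 0) = 1 := by
          rw [Finset.sum_ite_eq' Finset.univ (1 : ProjectiveSpecialLinearGroup (Fin 2) F) (fun _ => 1),
            if_pos (Finset.mem_univ _)]
        refine Eq.trans (congrArg (_ + ·) h6.symm) ?_
        rw [← Finset.sum_add_distrib]
        apply Finset.sum_congr rfl
        intro t _
        split_ifs <;> rfl
      have h7 : (∑ t : ProjectiveSpecialLinearGroup (Fin 2) F, if t = 1 then 0 else 1) ≤ 7799 := by omega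
      convert h7) hm
  omega

/-- the form with `HasSoc` -/
theorem index_le_soc (hF : Fintype.card F = 25) (h : EPT A Γ)
    (hs : H419.EP.HasSoc A (ProjectiveSpecialLinearGroup (Fin 2) F)) : A.index ≤ 6650979402 := by
  obtain ⟨N, h1, h2, h3, ⟨e⟩⟩ := hs
  exact index_le hF h h1 h2 e h3

end Cfsg.Agent.H545.EX.LTwo
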