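import Cfsg.Agent.H545.EX.LTwoGen
import Cfsg.Agent.H259.NatMod
import Cfsg.Agent.ChevalleyStructure.SL2Hom
import Cfsg.Agent.H948.PSLMax
import Cfsg.Agent.S0799

/-!
# S5745, T-bounds for `T = L₂(q)`: the admissible subgroups of `PSL₂(p ^ f)`, `f` prime (helper545)

`adm_cases` : an admissible subgroup is the normaliser of a Sylow `p`-subgroup or of `⟨a, b⟩`, `a` an involution, `b` of
order 2 or 3.  `ncard_adm` : there are at most `i₂ (i₂ + i₃) + |Syl_p|` admissible subgroups.
-/

set_option autoImplicit false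

namespace Cfsg.Agent.H545.EX.LTwo

open Subgroup Cfsg.Agent.H417.EP Matrix
open Cfsg.Agent.H417.EP.Eleven (D)
open Cfsg.Agent.ChevalleyStructure.SL2Hom (up lo mem_closure_SL2)

section gen

variable {K : Type*} [Field K]

/-- the involution -/
def aw (K : Type*) [Field K] : SpecialLinearGroup (Fin 2) K := ⟨!![0, -1; 1, 0], by simp⟩

/-- the element of order 3 -/
def bw (K : Type*) [Field K] : SpecialLinearGroup (Fin 2) K := ⟨!![0, -1; 1, 1], by simp⟩

theorem up_add (s t : K) : up (s + t) = up s * up t := by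
  apply Subtype.ext
  change (!![1, s + t; 0, 1] : Matrix (Fin 2) (Fin 2) K) = !![1, s; 0, 1] * !![1, t; 0, 1]
  rw [Matrix.mul_fin_two]
  simp [add_comm]

theorem up_zero : up (0 : K) = 1 := by
  apply Subtype.ext
  ext i j
  fin_cases i <;> fin_cases j <;> rfl

theorem aw_up : aw K * up 1 = bw K := by
  apply Subtype.ext
  change (!![0, -1; 1, 0] * !![1, 1; 0, 1] : Matrix (Fin 2) (Fin 2) K) = !![0, -1; 1, 1]
  rw [Matrix.mul_fin_two]
  simp

theorem lo_eq (t : K) : lo t * aw K = aw K * up (-t) := by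
  apply Subtype.ext
  change (!![1, 0; t, 1] * !![0, -1; 1, 0] : Matrix (Fin 2) (Fin 2) K) = !![0, -1; 1, 0] * !![1, -t; 0, 1]
  rw [Matrix.mul_fin_two, Matrix.mul_fin_two]
  simp

/-- every element of a field of prime order is a natural number -/
theorem exists_nat [Fintype K] {p : ℕ} (hp : p.Prime) (hc : Fintype.card K = p) (t : K) : ∃ n : ℕ, t = n := by
  have : Fact p.Prime := ⟨hp⟩
  have hch : CharP K p := charP_of_card_eq_prime hc
  let f : ZMod p →+* K := ZMod.castHom (dvd_refl p) K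
  have hf : Function.Bijective f := by
    have : Fintype (ZMod p) := ZMod.fintype p
    rw [Fintype.bijective_iff_injective_and_card]
    exact ⟨f.injective, by rw [ZMod.card, hc]⟩
  obtain ⟨z, rfl⟩ := hf.2 t
  refine ⟨z.val, ?_⟩
  rw [← map_natCast f, ZMod.natCast_zmod_val]

theorem gen_SL [Fintype K] {p : ℕ} (hp : p.Prime) (hc : Fintype.card K = p) :
    (closure {aw K, bw K} : Subgroup (SpecialLinearGroup (Fin 2) K)) = ⊤ := by
  have ha : aw K ∈ (closure {aw K, bw K} : Subgroup (SpecialLinearGroup (Fin 2) K)) := subset_closure (by simp)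
  have hb : bw K ∈ (closure {aw K, bw K} : Subgroup (SpecialLinearGroup (Fin 2) K)) := subset_closure (by simp)
  have h1 : up 1 ∈ (closure {aw K, bw K} : Subgroup (SpecialLinearGroup (Fin 2) K)) := by
    have : up 1 = (aw K)⁻¹ * bw K := by rw [← aw_up, inv_mul_cancel_left]
    rw [this]
    exact mul_mem (inv_mem ha) hb
  have hu : ∀ t : K, up t ∈ (closure {aw K, bw K} : Subgroup (SpecialLinearGroup (Fin 2) K)) := by
    intro t
    obtain ⟨n, rfl⟩ := exists_nat hp hc t
    induction n with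
    | zero => rw [Nat.cast_zero, up_zero]; exact one_mem _
    | succ n ih => rw [Nat.cast_succ, up_add]; exact mul_mem ih h1
  have hl : ∀ t : K, lo t ∈ (closure {aw K, bw K} : Subgroup (SpecialLinearGroup (Fin 2) K)) := by
    intro t
    have : lo t = aw K * up (-t) * (aw K)⁻¹ := by rw [eq_mul_inv_iff_mul_eq, lo_eq]
    rw [this]
    exact mul_mem (mul_mem ha (hu _)) (inv_mem ha)
  rw [eq_top_iff]
  intro g _
  refine (closure_le _).2 ?_ (mem_closure_SL2 g)
  rintro _ (⟨t, rfl⟩ | ⟨t, rfl⟩)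
  · exact hu t
  · exact hl t

theorem aw_sq : aw K ^ 2 = -1 := by
  apply Subtype.ext
  rw [pow_two]
  change (!![0, -1; 1, 0] * !![0, -1; 1, 0] : Matrix (Fin 2) (Fin 2) K) = -1
  rw [Matrix.mul_fin_two]
  ext i j
  fin_cases i <;> fin_cases j <;> simp

theorem bw_cu : bw K ^ 3 = -1 := by
  apply Subtype.ext
  rw [pow_succ, pow_two]
  change (!![0, -1; 1, 1] * !![0, -1; 1, 1] * !![0, -1; 1, 1] : Matrix (Fin 2) (Fin 2) K) = -1
  rw [Matrix.mul_fin_two, Matrix.mul_fin_two]
  ext i j
  fin_cases i <;> fin_cases j <;> simp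

/-- a hom from `SL₂` with kernel of scalars -/
theorem mem_D_of {X : Type*} [Group X] (f : SpecialLinearGroup (Fin 2) K →* X) (h1 : f (-1) = 1)
    (h2 : ∀ g, f g = 1 → g.1 1 0 = 0) : f (aw K) ∈ D X 2 ∧ f (bw K) ∈ D X 3 := by
  refine ⟨⟨fun h => ?_, ?_⟩, fun h => ?_, ?_⟩
  · exact one_ne_zero (h2 _ h)
  · rw [← map_pow, aw_sq, h1]
  · exact one_ne_zero (h2 _ h)
  · rw [← map_pow, bw_cu, h1]

end gen

section PSLPGL

variable {L : Type*} [Group L]

theorem pr_psl {A : Subgroup L} (hA : Adm A) {K : Type*} [Field K] [Fintype K] {p : ℕ} (hp : p.Prime)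
    (hc : Fintype.card K = p) (e : A ≃* ProjectiveSpecialLinearGroup (Fin 2) K) : Pr A := by
  let f : SpecialLinearGroup (Fin 2) K →* ProjectiveSpecialLinearGroup (Fin 2) K := QuotientGroup.mk' _
  have hf : Function.Surjective f := QuotientGroup.mk'_surjective _
  have h1 : f (-1) = 1 := by
    show ((-1 : SpecialLinearGroup (Fin 2) K) : ProjectiveSpecialLinearGroup (Fin 2) K) = 1
    rw [QuotientGroup.eq_one_iff, mem_center_iff]
    intro g
    rw [mul_neg, neg_mul, mul_one, one_mul]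
  have h2 : ∀ g, f g = 1 → g.1 1 0 = 0 := by
    intro g hg
    have h3 : g ∈ center (SpecialLinearGroup (Fin 2) K) := (QuotientGroup.eq_one_iff g).1 hg
    obtain ⟨r, -, h4⟩ := Matrix.SpecialLinearGroup.mem_center_iff.1 h3
    rw [← h4]
    simp
  obtain ⟨h3, h4⟩ := mem_D_of f h1 h2
  refine pr_of_gen hA e h3 (Or.inr h4) ?_
  rw [← Set.image_pair, ← MonoidHom.map_closure, gen_SL hp hc, ← MonoidHom.range_eq_map, MonoidHom.range_eq_top]
  exact hf

theorem pr_pgl {A : Subgroup L} (hA : Adm A) {K : Type*} [Field K] [Fintype K] {p : ℕ} (hp : p.Prime)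
    (hc : Fintype.card K = p) (h3 : p ≠ 3) (e : A ≃* ProjGenLinGroup (Fin 2) K) : Pr A := by
  let f : SpecialLinearGroup (Fin 2) K →* ProjGenLinGroup (Fin 2) K :=
    ProjGenLinGroup.mk.comp SpecialLinearGroup.toGL
  have hcoe : ∀ g : SpecialLinearGroup (Fin 2) K, ((SpecialLinearGroup.toGL g : GL (Fin 2) K) :
      Matrix (Fin 2) (Fin 2) K) = g.1 := fun g => rfl
  have h1 : f (-1) = 1 := by
    show ProjGenLinGroup.mk (SpecialLinearGroup.toGL (-1)) = 1
    rw [ProjGenLinGroup.mk_eq_one, mem_center_iff]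
    intro g
    apply Units.ext
    rw [Units.val_mul, Units.val_mul, hcoe]
    show (g : Matrix (Fin 2) (Fin 2) K) * (-1) = (-1) * (g : Matrix (Fin 2) (Fin 2) K)
    rw [mul_neg, neg_mul, mul_one, one_mul]
  have h2 : ∀ g, f g = 1 → g.1 1 0 = 0 := by
    intro g hg
    have h4 : ProjGenLinGroup.mk (SpecialLinearGroup.toGL g : GL (Fin 2) K) = 1 := hg
    rw [ProjGenLinGroup.mk_eq_one, GeneralLinearGroup.center_eq_range_scalar] at h4
    obtain ⟨u, hu⟩ := h4
    rw [← hcoe, ← hu]
    simp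
  obtain ⟨h4, h5⟩ := mem_D_of f h1 h2
  refine pr_of_char hA e h4 (Or.inr h5) ?_
  rw [← Set.image_pair, ← MonoidHom.map_closure, gen_SL hp hc, ← MonoidHom.range_eq_map]
  -- elements of determinant one
  have hdet : ∀ g : GL (Fin 2) K, (g : Matrix (Fin 2) (Fin 2) K).det = 1 → ProjGenLinGroup.mk g ∈ f.range := by
    intro g hg
    refine ⟨⟨g, hg⟩, ?_⟩
    show ProjGenLinGroup.mk _ = ProjGenLinGroup.mk _
    congr 1
    exact Units.ext rfl
  by_cases hp2 : p = 2
  · have : f.range = ⊤ := by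
      rw [eq_top_iff]
      intro x _
      obtain ⟨g, rfl⟩ := ProjGenLinGroup.mk_surjective x
      apply hdet
      have h6 : ∀ t : K, t ≠ 0 → t = 1 := by
        intro t ht
        have h7 := FiniteField.pow_card_sub_one_eq_one t ht
        rwa [hc, hp2, show 2 - 1 = 1 from rfl, pow_one] at h7
      apply h6
      exact (Matrix.isUnit_iff_isUnit_det _).1 g.isUnit |>.ne_zero
    rw [this]
    infer_instance
  · have hp3 : 3 < Fintype.card K := by
      rw [hc]
      have := hp.two_le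
      omega
    have : f.range = commutator (ProjGenLinGroup (Fin 2) K) := by
      apply le_antisymm
      · rintro _ ⟨g, rfl⟩
        have h6 : g ∈ commutator (SpecialLinearGroup (Fin 2) K) := by
          rw [H259.NatMod.commutator_eq_top hp3]
          exact mem_top _
        have h7 : (commutator (SpecialLinearGroup (Fin 2) K)).map f ≤ commutator (ProjGenLinGroup (Fin 2) K) := by
          rw [commutator_def, map_commutator, commutator_def]
          exact commutator_mono le_top le_top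
        exact h7 ⟨g, h6, rfl⟩
      · rw [commutator_def, commutator_le]
        intro x _ y _
        obtain ⟨g, rfl⟩ := ProjGenLinGroup.mk_surjective x
        obtain ⟨g', rfl⟩ := ProjGenLinGroup.mk_surjective y
        rw [commutatorElement_def, ← map_inv, ← map_inv, ← map_mul, ← map_mul, ← map_mul]
        apply hdet
        have h8 : (GeneralLinearGroup.det (g * g' * g⁻¹ * g'⁻¹) : Kˣ) = 1 := by
          rw [map_mul, map_mul, map_mul, map_inv, map_inv, mul_comm (GeneralLinearGroup.det g), mul_assoc,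
            mul_assoc, mul_inv_cancel_left, mul_inv_cancel]
        exact congrArg (fun u : Kˣ => (u : K)) h8
    rw [this]
    infer_instance

end PSLPGL

section main

/-- the Borel case -/
theorem borel {L : Type*} [Group L] [Finite L] {A : Subgroup L} (hA : Adm A) (hnc : ¬ ∀ a ∈ A, ∀ b ∈ A, a * b = b * a)
    {F : Type*} [Field F] [Fintype F] (p : ℕ) [hp : Fact p.Prime] [CharP F p]
    (P : Sylow p (ProjectiveSpecialLinearGroup (Fin 2) F)) {B : Subgroup (ProjectiveSpecialLinearGroup (Fin 2) F)}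
    (hB : B ≤ normalizer ((P : Subgroup (ProjectiveSpecialLinearGroup (Fin 2) F)) :
      Set (ProjectiveSpecialLinearGroup (Fin 2) F))) (e : A ≃* B) :
    ∃ P' : Sylow p L, A = normalizer ((P' : Subgroup L) : Set L) := by
  let R : Subgroup L := (((P : Subgroup (ProjectiveSpecialLinearGroup (Fin 2) F)).subgroupOf B).comap
    e.toMonoidHom).map A.subtype
  have hmem : ∀ y : A, (y : L) ∈ R ↔ ((e y : B) : ProjectiveSpecialLinearGroup (Fin 2) F) ∈ P := by
    intro y
    constructor
    · rintro ⟨z, hz, hzy⟩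
      have : z = y := Subtype.ext hzy
      rw [← this]
      exact hz
    · intro h
      exact ⟨y, h, rfl⟩
  have hR : ∀ y, y ∈ R ↔ y ∈ A ∧ ∃ k : ℕ, y ^ (p ^ k) = 1 := by
    intro y
    constructor
    · intro hy
      have hyA : y ∈ A := by
        obtain ⟨z, _, rfl⟩ := hy
        exact z.2
      refine ⟨hyA, ?_⟩
      obtain ⟨k, hk⟩ := P.2 ⟨_, (hmem ⟨y, hyA⟩).1 hy⟩
      refine ⟨k, ?_⟩
      have h1 : ((e ⟨y, hyA⟩ : B) : ProjectiveSpecialLinearGroup (Fin 2) F) ^ (p ^ k) = 1 := congrArg Subtype.val hk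
      rw [← Subgroup.coe_pow, ← map_pow, OneMemClass.coe_eq_one, map_eq_one_iff e e.injective] at h1
      exact congrArg Subtype.val h1
    · rintro ⟨hyA, k, hk⟩
      rw [show y = ((⟨y, hyA⟩ : A) : L) from rfl, hmem]
      set x : ProjectiveSpecialLinearGroup (Fin 2) F := ((e ⟨y, hyA⟩ : B) : ProjectiveSpecialLinearGroup (Fin 2) F)
        with hx
      have hxk : x ^ (p ^ k) = 1 := by
        rw [hx, ← Subgroup.coe_pow, ← map_pow]
        have : (⟨y, hyA⟩ : A) ^ (p ^ k) = 1 := Subtype.ext hk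
        rw [this, map_one, Subgroup.coe_one]
      have hQ : IsPGroup p (zpowers x) := by
        rintro ⟨z, n, rfl⟩
        refine ⟨k, Subtype.ext ?_⟩
        show (x ^ n) ^ (p ^ k) = 1
        rw [← _root_.zpow_natCast, ← _root_.zpow_mul, mul_comm, _root_.zpow_mul, _root_.zpow_natCast, hxk, _root_.one_zpow]
      have h1 := hQ.inf_normalizer_sylow P
      have h2 : x ∈ zpowers x ⊓ normalizer ((P : Subgroup (ProjectiveSpecialLinearGroup (Fin 2) F)) :
          Set (ProjectiveSpecialLinearGroup (Fin 2) F)) := ⟨mem_zpowers x, hB (e ⟨y, hyA⟩).2⟩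
      have h3 : x ∈ zpowers x ⊓ (P : Subgroup (ProjectiveSpecialLinearGroup (Fin 2) F)) := by
        rw [← h1]
        exact h2
      exact h3.2
  have hne : R ≠ ⊥ := by
    intro h0
    apply hnc
    intro a ha b hb
    have h1 := H948.PSLMax.comm_pow_char p P _ _ (hB (e ⟨a, ha⟩).2) (hB (e ⟨b, hb⟩).2)
    have h2 : (a * b * a⁻¹ * b⁻¹) ∈ R := by
      rw [hR]
      refine ⟨mul_mem (mul_mem (mul_mem ha hb) (inv_mem ha)) (inv_mem hb), 1, ?_⟩
      rw [pow_one]
      have h3 : (((e (⟨a, ha⟩ * ⟨b, hb⟩ * ⟨a, ha⟩⁻¹ * ⟨b, hb⟩⁻¹)) : B) :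
          ProjectiveSpecialLinearGroup (Fin 2) F) ^ p = 1 := by
        rw [commutatorElement_def] at h1
        rw [map_mul, map_mul, map_mul, map_inv, map_inv]
        exact h1
      rw [← Subgroup.coe_pow, ← map_pow, OneMemClass.coe_eq_one, map_eq_one_iff e e.injective] at h3
      exact congrArg Subtype.val h3
    rw [h0, mem_bot] at h2
    have h4 : a * b * a⁻¹ * b⁻¹ * (b * a) = b * a := by rw [h2, one_mul]
    have h5 : a * b * a⁻¹ * b⁻¹ * (b * a) = a * b := by group
    rw [← h5, h4]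
  obtain ⟨P', hP', hn⟩ := hA.sylow hp.out hR hne
  refine ⟨P', ?_⟩
  rw [hP']
  exact hn.symm

variable {F : Type*} [Field F] [Fintype F]

/-- **The admissible subgroups of `PSL₂(p ^ f)`, `f` prime.** -/
theorem adm_cases (p : ℕ) [hp : Fact p.Prime] [CharP F p] {f : ℕ} (hf : f.Prime) (hF : Fintype.card F = p ^ f)
    (h3 : p = 3 → ¬ 24 ∣ Nat.card (ProjectiveSpecialLinearGroup (Fin 2) F))
    [IsSimpleGroup (ProjectiveSpecialLinearGroup (Fin 2) F)]
    (hna : ∃ a b : ProjectiveSpecialLinearGroup (Fin 2) F, a * b ≠ b * a)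
    {A : Subgroup (ProjectiveSpecialLinearGroup (Fin 2) F)} (hA : Adm A) :
    Pr A ∨ ∃ P : Sylow p (ProjectiveSpecialLinearGroup (Fin 2) F), A = normalizer
      ((P : Subgroup (ProjectiveSpecialLinearGroup (Fin 2) F)) : Set (ProjectiveSpecialLinearGroup (Fin 2) F)) := by
  have hnc : ¬ ∀ a ∈ A, ∀ b ∈ A, a * b = b * a := hA.not_comm hna
  rcases Cfsg.Agent.S0799.result (F := F) rfl p A with
    ⟨k, -, ⟨hc, -⟩ | ⟨⟨e⟩⟩⟩ | ⟨P, B, hB, ⟨e⟩⟩ | ⟨⟨e⟩⟩ | ⟨⟨e⟩⟩ | ⟨⟨e⟩⟩ | ⟨K, _, _, m, hm, h⟩
  · exfalso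
    apply hnc
    intro a ha b hb
    exact congrArg Subtype.val (hc.isMulCommutative.is_comm.comm (⟨a, ha⟩ : A) ⟨b, hb⟩)
  · exact Or.inl (pr_dihedral hA e)
  · exact Or.inr (borel hA hnc p P hB e)
  · exact Or.inl (pr_A hA e)
  · exact Or.inl (pr_S hA e)
  · exact Or.inl (pr_five hA e)
  · -- the field `K`
    obtain ⟨r, _, n, hr, hK⟩ := FiniteField.card' K
    have hrp : r = p := by
      have h1 : r ∣ p ^ f := by
        rw [← hF, ← hm, hK, ← pow_mul]
        refine dvd_pow_self r ?_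
        intro h0
        rw [mul_eq_zero] at h0
        rcases h0 with h0 | h0
        · exact n.2.ne' h0
        · rw [h0, pow_zero, hF] at hm
          exact absurd hm.symm (Nat.one_lt_pow hf.ne_zero hp.out.one_lt).ne'
      exact (Nat.prime_dvd_prime_iff_eq hr hp.out).1 (hr.dvd_of_dvd_pow h1)
    subst hrp
    have h1 : (n : ℕ) * m = f := by
      rw [hK, hF, ← pow_mul] at hm
      exact Nat.pow_right_injective hr.two_le hm
    have h2 : (n : ℕ) = 1 ∨ (n : ℕ) = f := (Nat.dvd_prime hf).1 ⟨m, h1.symm⟩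
    rcases h2 with h2 | h2
    · rw [h2, pow_one] at hK
      left
      rcases h with ⟨⟨e⟩⟩ | ⟨⟨e⟩⟩
      · exact pr_psl hA hr hK e
      · by_cases h3' : r = 3
        · exfalso
          apply h3 h3'
          have h4 := ClassicalGeometry.PSL2Basic.card_PGL2 (F := K)
          rw [hK, h3', ← Nat.card_congr e.toEquiv] at h4
          have h5 := Subgroup.card_subgroup_dvd_card A
          rwa [h4] at h5
        · exact pr_pgl hA hr hK h3' e
    · exfalso
      apply hA.ne_top
      exact H948.PSLMax.eq_top_of_card_eq A (by rw [hK, h2, hF]) h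

/-- **The number of admissible subgroups.** -/
theorem ncard_adm (p : ℕ) [hp : Fact p.Prime] [CharP F p] {f : ℕ} (hf : f.Prime) (hF : Fintype.card F = p ^ f)
    (h3 : p = 3 → ¬ 24 ∣ Nat.card (ProjectiveSpecialLinearGroup (Fin 2) F))
    [IsSimpleGroup (ProjectiveSpecialLinearGroup (Fin 2) F)]
    (hna : ∃ a b : ProjectiveSpecialLinearGroup (Fin 2) F, a * b ≠ b * a) :
    {A : Subgroup (ProjectiveSpecialLinearGroup (Fin 2) F) | Adm A}.ncard ≤
      (D (ProjectiveSpecialLinearGroup (Fin 2) F) 2).ncard * ((D (ProjectiveSpecialLinearGroup (Fin 2) F) 2).ncard +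
        (D (ProjectiveSpecialLinearGroup (Fin 2) F) 3).ncard) +
      Nat.card (Sylow p (ProjectiveSpecialLinearGroup (Fin 2) F)) := by
  have h1 : {A : Subgroup (ProjectiveSpecialLinearGroup (Fin 2) F) | Adm A} ⊆
      {A | Pr A} ∪ Set.range (fun P : Sylow p (ProjectiveSpecialLinearGroup (Fin 2) F) => normalizer
      ((P : Subgroup (ProjectiveSpecialLinearGroup (Fin 2) F)) : Set (ProjectiveSpecialLinearGroup (Fin 2) F))) := by
    intro A hA
    rcases adm_cases p hf hF h3 hna hA with h | ⟨P, h⟩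
    · exact Or.inl h
    · exact Or.inr ⟨P, h.symm⟩
  refine (Set.ncard_le_ncard h1 (Set.toFinite _)).trans ((Set.ncard_union_le _ _).trans ?_)
  refine Nat.add_le_add ncard_pr ?_
  rw [← Set.image_univ]
  refine (Set.ncard_image_le (Set.toFinite _)).trans ?_
  rw [Set.ncard_univ]

end main

end Cfsg.Agent.H545.EX.LTwo
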