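import Cfsg.Agent.H417.EP.AdmSyl
import Cfsg.Agent.H417.EP.ElevenWeight

/-!
# S5745, T-bounds for `T = L₂(q)`: admissible subgroups given by a pair of elements of orders 2 and 2, 3 (helper545)

`Pr K` : `K = N_L(⟨a, b⟩)`, `a` an involution, `b` of order 2 or 3.  `ncard_pr` : there are at most `i₂ (i₂ + i₃)`.
-/

set_option autoImplicit false
set_option maxRecDepth 100000

namespace Cfsg.Agent.H545.EX.LTwo

open Subgroup Cfsg.Agent.H417.EP Equiv
open Cfsg.Agent.H417.EP.Eleven (D pairs gen_a5)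

variable {L : Type*} [Group L]

/-- `K = N_L(⟨a, b⟩)` -/
def Pr (K : Subgroup L) : Prop :=
  ∃ a ∈ D L 2, ∃ b, (b ∈ D L 2 ∨ b ∈ D L 3) ∧ K = normalizer ((closure {a, b} : Subgroup L) : Set L)

theorem ncard_pr [Finite L] : {K : Subgroup L | Pr K}.ncard ≤ (D L 2).ncard * ((D L 2).ncard + (D L 3).ncard) := by
  have h1 : {K : Subgroup L | Pr K} ⊆ (fun p : L × L => normalizer ((closure {p.1, p.2} : Subgroup L) : Set L)) ''
      ((D L 2) ×ˢ (D L 2 ∪ D L 3)) := by
    rintro K ⟨a, ha, b, hb, hK⟩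
    exact ⟨(a, b), ⟨ha, hb⟩, hK.symm⟩
  refine (Set.ncard_le_ncard h1 (Set.toFinite _)).trans ((Set.ncard_image_le (Set.toFinite _)).trans ?_)
  rw [Set.ncard_prod]
  exact Nat.mul_le_mul_left _ (Set.ncard_union_le _ _)

theorem mem_D_map {X : Type*} [Group X] (f : X →* L) (hf : Function.Injective f) {x : X} {n : ℕ} (hx : x ∈ D X n) :
    f x ∈ D L n := by
  refine ⟨fun h => hx.1 (hf (by rw [h, map_one])), ?_⟩
  rw [← map_pow, hx.2, map_one]

/-- `X = ⟨a, b⟩` characteristic in `K` -/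
theorem pr_of_char {K : Subgroup L} (hK : Adm K) {X : Type*} [Group X] (e : K ≃* X) {a b : X} (ha : a ∈ D X 2)
    (hb : b ∈ D X 2 ∨ b ∈ D X 3) (hc : (closure {a, b} : Subgroup X).Characteristic) : Pr K := by
  let f : X →* L := K.subtype.comp e.symm.toMonoidHom
  have hf : Function.Injective f := K.subtype_injective.comp e.symm.injective
  have hXc : (closure {f a, f b} : Subgroup L) = (closure {a, b} : Subgroup X).map f := by
    rw [MonoidHom.map_closure, Set.image_pair]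
  refine ⟨f a, mem_D_map f hf ha, f b, hb.imp (mem_D_map f hf) (mem_D_map f hf), ?_⟩
  rw [hXc]
  set Y : Subgroup X := closure {a, b} with hY
  have hYK : Y.map f ≤ K := by
    rintro _ ⟨y, _, rfl⟩
    exact (e.symm y).2
  have hf' : ∀ y : K, f (e y) = (y : L) := fun y => by
    show ((e.symm (e y) : K) : L) = y
    rw [MulEquiv.symm_apply_apply]
  apply le_antisymm
  · intro g hg
    have hn : Y.Normal := inferInstance
    rw [mem_normalizer_iff]
    have h1 : ∀ g : L, g ∈ K → ∀ x, x ∈ Y.map f → g * x * g⁻¹ ∈ Y.map f := by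
      rintro g hg _ ⟨y, hy, rfl⟩
      refine ⟨e ⟨g, hg⟩ * y * (e ⟨g, hg⟩)⁻¹, hn.conj_mem y hy _, ?_⟩
      rw [map_mul, map_mul, map_inv, hf']
    intro x
    refine ⟨h1 g hg x, fun hx => ?_⟩
    have := h1 g⁻¹ (inv_mem hg) _ hx
    rwa [show g⁻¹ * (g * x * g⁻¹) * g⁻¹⁻¹ = x by group] at this
  · intro g hg
    refine hK.norm (Y.map f) hYK ?_ ?_ g fun x hx => (mem_normalizer_iff.1 hg x).1 hx
    · intro h0
      have h1 : f a ∈ Y.map f := ⟨a, subset_closure (by simp), rfl⟩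
      rw [h0, mem_bot] at h1
      exact (mem_D_map f hf ha).1 h1
    · rintro φ y ⟨z, hz, hzy⟩
      have hzy' : z = e y := hf (by rw [hzy, hf'])
      have h2 : Y.map ((e.symm.trans φ).trans e).toMonoidHom = Y :=
        characteristic_iff_map_eq.1 hc ((e.symm.trans φ).trans e)
      refine ⟨e (φ y), ?_, hf' _⟩
      rw [← h2]
      refine ⟨z, hz, ?_⟩
      show e (φ (e.symm z)) = e (φ y)
      rw [hzy', MulEquiv.symm_apply_apply]

theorem pr_of_gen {K : Subgroup L} (hK : Adm K) {X : Type*} [Group X] (e : K ≃* X) {a b : X} (ha : a ∈ D X 2)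
    (hb : b ∈ D X 2 ∨ b ∈ D X 3) (hc : (closure {a, b} : Subgroup X) = ⊤) : Pr K :=
  pr_of_char hK e ha hb (by rw [hc]; infer_instance)

theorem pr_dihedral {K : Subgroup L} (hK : Adm K) {k : ℕ} (e : K ≃* DihedralGroup k) : Pr K := by
  have h2 : ∀ i : ZMod k, (DihedralGroup.sr i : DihedralGroup k) ∈ D (DihedralGroup k) 2 := by
    intro i
    refine ⟨fun h => ?_, ?_⟩
    · rw [DihedralGroup.one_def] at h
      cases h
    · rw [pow_two, DihedralGroup.sr_mul_sr, sub_self, DihedralGroup.one_def]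
  refine pr_of_gen hK e (h2 0) (Or.inl (h2 1)) ?_
  rw [eq_top_iff]
  have m0 : (DihedralGroup.sr 0 : DihedralGroup k) ∈ (closure {DihedralGroup.sr 0, DihedralGroup.sr 1} :
      Subgroup (DihedralGroup k)) := subset_closure (by simp)
  have m1 : (DihedralGroup.sr 1 : DihedralGroup k) ∈ (closure {DihedralGroup.sr 0, DihedralGroup.sr 1} :
      Subgroup (DihedralGroup k)) := subset_closure (by simp)
  have mr : ∀ i : ZMod k, (DihedralGroup.r i : DihedralGroup k) ∈ (closure {DihedralGroup.sr 0, DihedralGroup.sr 1} :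
      Subgroup (DihedralGroup k)) := by
    intro i
    have h3 : (DihedralGroup.r 1 : DihedralGroup k) ∈ (closure {DihedralGroup.sr 0, DihedralGroup.sr 1} :
        Subgroup (DihedralGroup k)) := by
      have := mul_mem m0 m1
      rwa [DihedralGroup.sr_mul_sr, sub_zero] at this
    have h4 := zpow_mem h3 (i.cast : ℤ)
    rwa [DihedralGroup.r_one_zpow, ZMod.intCast_cast, ZMod.cast_id] at h4
  rintro (i | i) -
  · exact mr i
  · have := mul_mem m0 (mr i)
    rwa [DihedralGroup.sr_mul_r, zero_add] at this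

def aA : alternatingGroup (Fin 4) := ⟨c[0,1] * c[2,3], Perm.mem_alternatingGroup.2 (by decide)⟩
def bA : alternatingGroup (Fin 4) := ⟨c[0,1,2], Perm.mem_alternatingGroup.2 (by decide)⟩
def aS : Perm (Fin 4) := c[0,1]
def bS : Perm (Fin 4) := c[1,2,3]

theorem words_A : ∀ x : alternatingGroup (Fin 4), ∃ i : Fin 3, ∃ j : Fin 2, ∃ k : Fin 3,
    x = bA ^ i.1 * aA ^ j.1 * bA ^ k.1 ∨ x = aA * bA ^ i.1 * aA ^ j.1 * bA ^ k.1 := by decide +kernel

theorem words_S : ∀ x : Perm (Fin 4), ∃ i : Fin 3, ∃ j : Fin 2, ∃ k : Fin 3, ∃ l : Fin 2, ∃ m : Fin 3,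
    x = bS ^ i.1 * aS ^ j.1 * bS ^ k.1 * aS ^ l.1 * bS ^ m.1 ∨
      x = aS * bS ^ i.1 * aS ^ j.1 * bS ^ k.1 * aS ^ l.1 * bS ^ m.1 := by decide +kernel

theorem pr_A {K : Subgroup L} (hK : Adm K) (e : K ≃* alternatingGroup (Fin 4)) : Pr K := by
  refine pr_of_gen hK e (a := aA) (b := bA) ⟨by decide +kernel, by decide +kernel⟩
    (Or.inr ⟨by decide +kernel, by decide +kernel⟩) ?_
  rw [eq_top_iff]
  intro x _
  have ha : aA ∈ (closure {aA, bA} : Subgroup _) := subset_closure (by simp)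
  have hb : bA ∈ (closure {aA, bA} : Subgroup _) := subset_closure (by simp)
  obtain ⟨i, j, k, rfl | rfl⟩ := words_A x
  · exact mul_mem (mul_mem (pow_mem hb _) (pow_mem ha _)) (pow_mem hb _)
  · exact mul_mem (mul_mem (mul_mem ha (pow_mem hb _)) (pow_mem ha _)) (pow_mem hb _)

theorem pr_S {K : Subgroup L} (hK : Adm K) (e : K ≃* Perm (Fin 4)) : Pr K := by
  refine pr_of_gen hK e (a := aS) (b := bS) ⟨by decide +kernel, by decide +kernel⟩
    (Or.inr ⟨by decide +kernel, by decide +kernel⟩) ?_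
  rw [eq_top_iff]
  intro x _
  have ha : aS ∈ (closure {aS, bS} : Subgroup _) := subset_closure (by simp)
  have hb : bS ∈ (closure {aS, bS} : Subgroup _) := subset_closure (by simp)
  obtain ⟨i, j, k, l, m, rfl | rfl⟩ := words_S x
  · exact mul_mem (mul_mem (mul_mem (mul_mem (pow_mem hb _) (pow_mem ha _)) (pow_mem hb _)) (pow_mem ha _))
      (pow_mem hb _)
  · exact mul_mem (mul_mem (mul_mem (mul_mem (mul_mem ha (pow_mem hb _)) (pow_mem ha _)) (pow_mem hb _))
      (pow_mem ha _)) (pow_mem hb _)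

def a5 : alternatingGroup (Fin 5) := ⟨c[0,1] * c[2,3], Perm.mem_alternatingGroup.2 (by decide)⟩
def b5 : alternatingGroup (Fin 5) := ⟨c[0,2,4], Perm.mem_alternatingGroup.2 (by decide)⟩

theorem pr_five {K : Subgroup L} (hK : Adm K) (e : K ≃* alternatingGroup (Fin 5)) : Pr K := by
  have h1 : a5 ∈ D (alternatingGroup (Fin 5)) 2 := ⟨by decide +kernel, by decide +kernel⟩
  have h2 : b5 ∈ D (alternatingGroup (Fin 5)) 3 := ⟨by decide +kernel, by decide +kernel⟩
  have h3 : a5 * b5 ∈ D (alternatingGroup (Fin 5)) 5 := ⟨by decide +kernel, by decide +kernel⟩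
  refine pr_of_gen hK e h1 (Or.inr h2) ?_
  exact gen_a5 (MulEquiv.refl _) (p := (a5, b5)) ⟨h1, h2, h3⟩ (subset_closure (by simp)) (subset_closure (by simp))

end Cfsg.Agent.H545.EX.LTwo
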