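import Cfsg.Agent.H545.EX.LTwo25
import Cfsg.Agent.H742.EX.EPi

/-!
# S5745, the Tits group: `T = L₂(25)`: Sylow subgroups of `PSL₂(25)` (helper545)

* `card_sylow_five` : 26 Sylow 5-subgroups; `card_norm_five` : their normalisers have order 300;
* `fifty_le` : with at least 50 elements of order 3;
* `card_cases` : orders of the subgroups;
* `card_sylow_thirteen` : 300 Sylow 13-subgroups, at most one in each proper subgroup.
-/

set_option autoImplicit false
set_option linter.unusedSectionVars false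

namespace Cfsg.Agent.H545.EX.LTwo

open scoped Pointwise
open Subgroup Matrix Cfsg.Agent.H417.EP
open Cfsg.Agent.H417.EP.Eleven (D)
open Cfsg.Agent.ChevalleyStructure.SL2Hom (up)
open Cfsg.Agent.ClassicalGeometry.AutPSL.Root

section gen

theorem mem_norm {L : Type*} [Group L] [Finite L] {U : Subgroup L} {g : L} (h : ∀ u ∈ U, g * u * g⁻¹ ∈ U) :
    g ∈ normalizer (U : Set L) := by
  have h1 : U.map (MulAut.conj g).toMonoidHom ≤ U := by
    rintro _ ⟨u, hu, rfl⟩
    exact h u hu
  have h2 : U.map (MulAut.conj g).toMonoidHom = U :=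
    Subgroup.eq_of_le_of_card_ge h1 (Nat.card_congr (U.equivMapOfInjective _ (MulAut.conj g).injective).toEquiv).le
  rw [mem_normalizer_iff]
  intro x
  constructor
  · exact h x
  · intro hx
    have hx' : g * x * g⁻¹ ∈ U := hx
    rw [← h2] at hx'
    obtain ⟨u, hu, e⟩ := hx'
    have e' : g * u * g⁻¹ = g * x * g⁻¹ := e
    have : u = x := mul_left_cancel (mul_right_cancel e')
    rw [← this]
    exact hu

/-- a simple group acting on its Sylow subgroups -/
theorem card_dvd_fact {L : Type*} [Group L] [Finite L] [IsSimpleGroup L] {r : ℕ} [Fact r.Prime]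
    (h : Nat.card (Sylow r L) ≠ 1) : Nat.card L ∣ (Nat.card (Sylow r L)).factorial := by
  classical
  let f : L →* Equiv.Perm (Sylow r L) := MulAction.toPermHom L (Sylow r L)
  have hf : Function.Injective f := by
    rw [← MonoidHom.ker_eq_bot_iff]
    rcases (inferInstance : f.ker.Normal).eq_bot_or_eq_top with h1 | h1
    · exact h1
    · exfalso
      apply h
      rw [Nat.card_eq_one_iff_unique]
      refine ⟨⟨fun P P' => ?_⟩, inferInstance⟩
      obtain ⟨g, hg⟩ := MulAction.exists_smul_eq L P P'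
      have h2 : g ∈ f.ker := by rw [h1]; exact mem_top g
      rw [MonoidHom.mem_ker] at h2
      have h3 := DFunLike.congr_fun h2 P
      rw [← hg]
      exact h3.symm
  have h1 := Subgroup.card_dvd_of_injective f hf
  rwa [Nat.card_perm] at h1

end gen

section PSL

variable {F : Type*} [Field F] [Fintype F]

theorem char_five (hF : Fintype.card F = 25) : CharP F 5 := by
  have : Fact (Nat.Prime 5) := ⟨by norm_num⟩
  exact charP_of_card_eq_prime_pow (f := 2) (by rw [hF]; norm_num)

/-- the unipotent homomorphism -/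
noncomputable def uh (F : Type*) [Field F] : Multiplicative F →* ProjectiveSpecialLinearGroup (Fin 2) F where
  toFun t := pr (up t.toAdd)
  map_one' := by
    rw [toAdd_one, up_zero, map_one]
  map_mul' s t := by
    rw [toAdd_mul, up_add, map_mul]

theorem uh_inj : Function.Injective (uh F) := by
  rw [injective_iff_map_eq_one]
  intro t ht
  have h1 : pr (up t.toAdd) = 1 := ht
  rw [scalar_iff] at h1
  have h2 : t.toAdd = 0 := h1.1
  exact Multiplicative.toAdd.injective h2

/-- the upper triangular elements of order 3 -/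
def tm (a b : F) (h : a ^ 2 + a + 1 = 0) : SpecialLinearGroup (Fin 2) F :=
  ⟨!![a, b; 0, a ^ 2], by
    rw [det_fin_two_of]
    linear_combination (a - 1) * h⟩

theorem tm_mul_up (a b t : F) (h : a ^ 2 + a + 1 = 0) : tm a b h * up t = up (a ^ 2 * t) * tm a b h := by
  apply Subtype.ext
  change (!![a, b; 0, a ^ 2] * !![1, t; 0, 1] : Matrix (Fin 2) (Fin 2) F) = !![1, a ^ 2 * t; 0, 1] * !![a, b; 0, a ^ 2]
  rw [Matrix.mul_fin_two, Matrix.mul_fin_two]
  ext i j
  fin_cases i <;> fin_cases j
  · simp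
  · simp
    linear_combination (-t * a * (a - 1)) * h
  · simp
  · simp

theorem tm_cube (a b : F) (h : a ^ 2 + a + 1 = 0) : tm a b h ^ 3 = 1 := by
  rw [pow_succ, pow_two]
  apply Subtype.ext
  change (!![a, b; 0, a ^ 2] * !![a, b; 0, a ^ 2] * !![a, b; 0, a ^ 2] : Matrix (Fin 2) (Fin 2) F) = 1
  rw [Matrix.mul_fin_two, Matrix.mul_fin_two]
  ext i j
  fin_cases i <;> fin_cases j
  · simp
    linear_combination (a - 1) * h
  · simp
    linear_combination (a ^ 2 * b) * h
  · simp
  · simp
    linear_combination (a ^ 4 - a ^ 3 + a - 1) * h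

theorem tm_ne (h5 : (5 : F) = 0) (a b : F) (h : a ^ 2 + a + 1 = 0) : pr (tm a b h) ≠ 1 := by
  intro h1
  rw [scalar_iff] at h1
  have h2 : a = a ^ 2 := h1.2.2
  have h3 : (1 : F) = 0 := by
    have h3' : (3 : F) = 0 := by linear_combination (3 - 2 * a) * h - (2 * a + 1) * h2
    linear_combination 2 * h3' - h5
  exact one_ne_zero h3

theorem tm_inj (a b a' b' : F) (h : a ^ 2 + a + 1 = 0) (h' : a' ^ 2 + a' + 1 = 0) (e : pr (tm a b h) = pr (tm a' b' h')) :
    a = a' ∧ b = b' := by
  set z := (tm a b h)⁻¹ * tm a' b' h' with hz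
  have h1 : pr z = 1 := by rw [hz, map_mul, map_inv, e, inv_mul_cancel]
  rw [scalar_iff] at h1
  obtain ⟨q1, q2, q3⟩ := h1
  have h2 : tm a b h * z = tm a' b' h' := by rw [hz, mul_inv_cancel_left]
  have h3 : (!![a, b; 0, a ^ 2] * z.1 : Matrix (Fin 2) (Fin 2) F) = !![a', b'; 0, a' ^ 2] := congrArg Subtype.val h2
  have m : ∀ i j, (!![a, b; 0, a ^ 2] * z.1 : Matrix (Fin 2) (Fin 2) F) i j = (!![a', b'; 0, a' ^ 2] : Matrix _ _ F) i j :=
    fun i j => by rw [h3]
  have m00 := m 0 0
  have m01 := m 0 1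
  have m11 := m 1 1
  rw [Matrix.mul_apply, Fin.sum_univ_two] at m00 m01 m11
  have q1' : z.1 0 1 = 0 := q1
  have q2' : z.1 1 0 = 0 := q2
  have q3' : z.1 0 0 = z.1 1 1 := q3
  simp [q1', q2'] at m00 m01 m11
  rw [q3'] at m00
  have ha : a ≠ 0 := by
    rintro rfl
    simp at h
  have h4 : a ^ 2 * (z.1 1 1 * (z.1 1 1 - 1)) = 0 := by
    rw [← m00] at m11
    linear_combination -m11
  have hz0 : z.1 1 1 ≠ 0 := by
    intro h0
    rw [h0, mul_zero] at m00
    rw [← m00] at h'
    simp at h'
  have h5 : z.1 1 1 = 1 := by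
    rcases mul_eq_zero.1 h4 with h6 | h6
    · exact absurd h6 (pow_ne_zero 2 ha)
    · exact sub_eq_zero.1 ((mul_eq_zero.1 h6).resolve_left hz0)
  rw [h5, mul_one] at m00 m01
  exact ⟨m00, m01⟩

/-- a Sylow 5-subgroup -/
noncomputable def U₀ (F : Type*) [Field F] : Subgroup (ProjectiveSpecialLinearGroup (Fin 2) F) := (uh F).range

theorem card_U₀ (hF : Fintype.card F = 25) : Nat.card (U₀ F) = 25 := by
  rw [U₀, ← Nat.card_congr (MonoidHom.ofInjective uh_inj).toEquiv]
  change Nat.card F = 25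
  rw [Nat.card_eq_fintype_card, hF]

theorem fact_five (hF : Fintype.card F = 25) : (Nat.card (ProjectiveSpecialLinearGroup (Fin 2) F)).factorization 5 = 2 := by
  rw [card_25 hF]
  have h1 : (7800 : ℕ) = 5 ^ 2 * 312 := by norm_num
  rw [h1, Nat.factorization_mul (by norm_num) (by norm_num), Nat.Prime.factorization_pow (by norm_num)]
  simp [Nat.factorization_eq_zero_of_not_dvd (show ¬ 5 ∣ 312 by norm_num)]

/-- the number of elements of order 3 of a subgroup -/
noncomputable def e3 {L : Type*} [Group L] (K : Subgroup L) : ℕ := {x : L | x ∈ K ∧ x ∈ D L 3}.ncard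

theorem roots (hF : Fintype.card F = 25) : ∃ a b : F, a ≠ b ∧ a ^ 2 + a + 1 = 0 ∧ b ^ 2 + b + 1 = 0 := by
  have h3 : Fact (Nat.Prime 3) := ⟨Nat.prime_three⟩
  have hc : Nat.card Fˣ = 24 := by rw [Nat.card_units, Nat.card_eq_fintype_card, hF]
  obtain ⟨w, hw⟩ := exists_prime_orderOf_dvd_card' (G := Fˣ) 3 (by rw [hc]; norm_num)
  have h1 : (w : F) ^ 3 = 1 := by
    have := pow_orderOf_eq_one w
    rw [hw] at this
    rw [← Units.val_pow_eq_pow_val, this, Units.val_one]
  have h2 : (w : F) ≠ 1 := by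
    intro h0
    have : w = 1 := Units.ext h0
    rw [this, orderOf_one] at hw
    norm_num at hw
  have h4 : (w : F) ^ 2 + w + 1 = 0 := by
    have h5 : ((w : F) - 1) * ((w : F) ^ 2 + w + 1) = 0 := by linear_combination h1
    exact (mul_eq_zero.1 h5).resolve_left (sub_ne_zero.2 h2)
  refine ⟨w, (w : F) ^ 2, ?_, h4, ?_⟩
  · intro h0
    apply h2
    have h6 : (w : F) * ((w : F) - 1) = 0 := by linear_combination -h0
    exact sub_eq_zero.1 ((mul_eq_zero.1 h6).resolve_left w.ne_zero)
  · linear_combination ((w : F) ^ 2 - w + 1) * h4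

theorem fifty_U₀ (hF : Fintype.card F = 25) :
    50 ≤ e3 (normalizer (U₀ F : Set (ProjectiveSpecialLinearGroup (Fin 2) F))) := by
  classical
  have := char_five hF
  have h5 : (5 : F) = 0 := by exact_mod_cast CharP.cast_eq_zero F 5
  obtain ⟨a, b, hab, ha, hb⟩ := roots hF
  have hroot : ∀ i : Fin 2, (![a, b] i) ^ 2 + ![a, b] i + 1 = 0 := by
    intro i
    fin_cases i
    · exact ha
    · exact hb
  have hinj : Function.Injective (fun p : Fin 2 × F => pr (tm (![a, b] p.1) p.2 (hroot p.1))) := by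
    rintro ⟨i, s⟩ ⟨j, t⟩ e
    obtain ⟨e1, e2⟩ := tm_inj _ _ _ _ _ _ e
    have : i = j := by
      fin_cases i <;> fin_cases j
      · rfl
      · exact absurd e1 hab
      · exact absurd e1.symm hab
      · rfl
    rw [this]
    exact Prod.ext rfl e2
  have h1 : Set.range (fun p : Fin 2 × F => pr (tm (![a, b] p.1) p.2 (hroot p.1))) ⊆
      {x | x ∈ normalizer (U₀ F : Set (ProjectiveSpecialLinearGroup (Fin 2) F)) ∧ x ∈ D _ 3} := by
    rintro _ ⟨p, rfl⟩
    refine ⟨?_, tm_ne h5 _ _ _, ?_⟩
    · apply mem_norm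
      rintro _ ⟨t, rfl⟩
      refine ⟨Multiplicative.ofAdd ((![a, b] p.1) ^ 2 * t.toAdd), ?_⟩
      change pr (up ((![a, b] p.1) ^ 2 * t.toAdd)) = pr _ * pr (up t.toAdd) * (pr _)⁻¹
      rw [eq_mul_inv_iff_mul_eq, ← map_mul, ← map_mul, tm_mul_up]
    · rw [← map_pow, tm_cube, map_one]
  have h2 := Set.ncard_le_ncard h1 (Set.toFinite _)
  rw [← Set.image_univ, Set.ncard_image_of_injective _ hinj, Set.ncard_univ, Nat.card_prod, Nat.card_eq_fintype_card,
    Nat.card_eq_fintype_card, Fintype.card_fin, hF] at h2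
  exact h2

theorem e3_conj {L : Type*} [Group L] [Finite L] {K K' : Subgroup L} (g : L) (h : ∀ x ∈ K, g * x * g⁻¹ ∈ K') : e3 K ≤ e3 K' := by
  refine Set.ncard_le_ncard_of_injOn (fun x => g * x * g⁻¹) ?_ ?_ (Set.toFinite _)
  · rintro x ⟨h1, h2, h3⟩
    refine ⟨h x h1, ?_, ?_⟩
    · intro h4
      exact h2 (conj_eq_one_iff.1 h4)
    · rw [conj_pow, h3, mul_one, mul_inv_cancel]
  · intro x _ y _ e
    exact mul_left_cancel (mul_right_cancel e)

/-- **the normaliser of a Sylow 5-subgroup has at least 50 elements of order 3** -/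
theorem fifty_le (hF : Fintype.card F = 25) [Fact (Nat.Prime 5)] (P : Sylow 5 (ProjectiveSpecialLinearGroup (Fin 2) F)) :
    50 ≤ e3 (normalizer ((P : Subgroup (ProjectiveSpecialLinearGroup (Fin 2) F)) :
      Set (ProjectiveSpecialLinearGroup (Fin 2) F))) := by
  let P₀ : Sylow 5 (ProjectiveSpecialLinearGroup (Fin 2) F) := Sylow.ofCard (U₀ F) (by rw [card_U₀ hF, fact_five hF]; norm_num)
  have hP₀ : (P₀ : Subgroup (ProjectiveSpecialLinearGroup (Fin 2) F)) = U₀ F := rfl
  obtain ⟨g, hg⟩ := MulAction.exists_smul_eq (ProjectiveSpecialLinearGroup (Fin 2) F) P₀ P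
  refine (fifty_U₀ hF).trans (e3_conj g fun x hx => ?_)
  have h2 : ∀ y, y ∈ P ↔ g⁻¹ * y * g ∈ U₀ F := by
    intro y
    rw [← hg, ← hP₀]
    change y ∈ (MulAut.conj g • (P₀ : Subgroup (ProjectiveSpecialLinearGroup (Fin 2) F))) ↔ _
    rw [Subgroup.mem_pointwise_smul_iff_inv_smul_mem]
    have : (MulAut.conj g)⁻¹ • y = g⁻¹ * y * g := by
      rw [← map_inv, MulAut.smul_def, MulAut.conj_apply, inv_inv]
    rw [this]
  apply mem_norm
  intro y hy
  have h3 := (h2 y).1 hy
  have h4 := (mem_normalizer_iff.1 hx _).1 h3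
  refine (h2 _).2 ?_
  have : g⁻¹ * (g * x * g⁻¹ * y * (g * x * g⁻¹)⁻¹) * g = x * (g⁻¹ * y * g) * x⁻¹ := by group
  rw [this]
  exact h4

/-- **the number of Sylow 5-subgroups** -/
theorem card_sylow_five (hF : Fintype.card F = 25) [Fact (Nat.Prime 5)] :
    Nat.card (Sylow 5 (ProjectiveSpecialLinearGroup (Fin 2) F)) = 26 := by
  classical
  have := simple_25 hF
  obtain ⟨P⟩ : Nonempty (Sylow 5 (ProjectiveSpecialLinearGroup (Fin 2) F)) := inferInstance
  have hcP : Nat.card (P : Subgroup (ProjectiveSpecialLinearGroup (Fin 2) F)) = 25 := by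
    rw [P.card_eq_multiplicity, fact_five hF]
    norm_num
  have h1 : Nat.card (Sylow 5 (ProjectiveSpecialLinearGroup (Fin 2) F)) =
    (normalizer ((P : Subgroup (ProjectiveSpecialLinearGroup (Fin 2) F)) :
      Set (ProjectiveSpecialLinearGroup (Fin 2) F))).index := P.card_eq_index_normalizer
  have h2 := (normalizer ((P : Subgroup (ProjectiveSpecialLinearGroup (Fin 2) F)) :
    Set (ProjectiveSpecialLinearGroup (Fin 2) F))).card_mul_index
  rw [card_25 hF] at h2
  have hle : (P : Subgroup (ProjectiveSpecialLinearGroup (Fin 2) F)) ≤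
    normalizer ((P : Subgroup (ProjectiveSpecialLinearGroup (Fin 2) F)) : Set (ProjectiveSpecialLinearGroup (Fin 2) F)) :=
    le_normalizer
  obtain ⟨m, hm⟩ := Subgroup.card_dvd_of_le hle
  rw [hcP] at hm
  have h3 : 75 ≤ Nat.card (normalizer ((P : Subgroup (ProjectiveSpecialLinearGroup (Fin 2) F)) :
      Set (ProjectiveSpecialLinearGroup (Fin 2) F))) := by
    have hd : Disjoint ((P : Subgroup (ProjectiveSpecialLinearGroup (Fin 2) F)) : Set (ProjectiveSpecialLinearGroup (Fin 2) F))
        {x | x ∈ normalizer ((P : Subgroup (ProjectiveSpecialLinearGroup (Fin 2) F)) :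
          Set (ProjectiveSpecialLinearGroup (Fin 2) F)) ∧ x ∈ D _ 3} := by
      rw [Set.disjoint_left]
      rintro x hx ⟨-, hx1, hx3⟩
      apply hx1
      obtain ⟨k, hk⟩ := P.2 ⟨x, hx⟩
      have hk' : x ^ (5 ^ k) = 1 := congrArg Subtype.val hk
      have h4 : orderOf x ∣ 3 := orderOf_dvd_of_pow_eq_one hx3
      have h5 : orderOf x ∣ 5 ^ k := orderOf_dvd_of_pow_eq_one hk'
      have h6 : Nat.Coprime 3 (5 ^ k) := Nat.Coprime.pow_right _ (by norm_num)
      rw [← orderOf_eq_one_iff]
      exact Nat.eq_one_of_dvd_coprimes h6 h4 h5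
    have h4 := Set.ncard_union_eq hd (Set.toFinite _) (Set.toFinite _)
    have h5 := fifty_le hF P
    have h6 : ((P : Subgroup (ProjectiveSpecialLinearGroup (Fin 2) F)) : Set (ProjectiveSpecialLinearGroup (Fin 2) F)).ncard = 25 := by
      rw [← hcP]
      rfl
    have h7 : (((P : Subgroup (ProjectiveSpecialLinearGroup (Fin 2) F)) : Set (ProjectiveSpecialLinearGroup (Fin 2) F)) ∪
        {x | x ∈ normalizer ((P : Subgroup (ProjectiveSpecialLinearGroup (Fin 2) F)) :
          Set (ProjectiveSpecialLinearGroup (Fin 2) F)) ∧ x ∈ D _ 3}) ⊆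
        ((normalizer ((P : Subgroup (ProjectiveSpecialLinearGroup (Fin 2) F)) :
          Set (ProjectiveSpecialLinearGroup (Fin 2) F)) : Subgroup (ProjectiveSpecialLinearGroup (Fin 2) F)) :
          Set (ProjectiveSpecialLinearGroup (Fin 2) F)) := by
      rintro x (hx | hx)
      · exact hle hx
      · exact hx.1
    have h8 := Set.ncard_le_ncard h7 (Set.toFinite _)
    rw [h4, h6] at h8
    unfold e3 at h5
    refine le_trans ?_ h8
    omega
  have h4 := card_sylow_modEq_one 5 (ProjectiveSpecialLinearGroup (Fin 2) F)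
  rw [← h1, hm] at h2
  rw [hm] at h3
  have hfac := card_dvd_fact (L := ProjectiveSpecialLinearGroup (Fin 2) F) (r := 5)
  rw [card_25 hF] at hfac
  have hone : Nat.card (Sylow 5 (ProjectiveSpecialLinearGroup (Fin 2) F)) ≠ 1 := by
    intro h0
    rw [h0] at h1
    have h5 : normalizer ((P : Subgroup (ProjectiveSpecialLinearGroup (Fin 2) F)) :
        Set (ProjectiveSpecialLinearGroup (Fin 2) F)) = ⊤ := Subgroup.index_eq_one.1 h1.symm
    have h6 : (P : Subgroup (ProjectiveSpecialLinearGroup (Fin 2) F)).Normal := Subgroup.normalizer_eq_top_iff.1 h5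
    rcases h6.eq_bot_or_eq_top with h7 | h7
    · rw [h7, Subgroup.card_bot] at hcP
      norm_num at hcP
    · rw [h7, Subgroup.card_top, card_25 hF] at hcP
      norm_num at hcP
  generalize Nat.card (Sylow 5 (ProjectiveSpecialLinearGroup (Fin 2) F)) = s at *
  have hs : s ≤ 104 := by
    by_contra hcon
    have : 3 * 105 ≤ m * s := Nat.mul_le_mul (by omega) (by omega)
    nlinarith
  have h5 : s % 5 = 1 := h4
  clear h1 h4
  have h6 : m * s = 312 := by nlinarith
  have h7 : s ∣ 312 := Dvd.intro_left _ h6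
  have h8 : s = 1 ∨ s = 6 ∨ s = 26 := by
    clear hfac hone h2 h3 hm h6
    revert h7 h5
    interval_cases s <;> decide
  rcases h8 with rfl | rfl | rfl
  · exact absurd rfl hone
  · exfalso
    have := hfac (by norm_num)
    revert this
    decide
  · rfl

theorem card_norm_five (hF : Fintype.card F = 25) [Fact (Nat.Prime 5)] (P : Sylow 5 (ProjectiveSpecialLinearGroup (Fin 2) F)) :
    Nat.card (normalizer ((P : Subgroup (ProjectiveSpecialLinearGroup (Fin 2) F)) :
      Set (ProjectiveSpecialLinearGroup (Fin 2) F))) = 300 := by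
  have h1 : Nat.card (Sylow 5 (ProjectiveSpecialLinearGroup (Fin 2) F)) =
    (normalizer ((P : Subgroup (ProjectiveSpecialLinearGroup (Fin 2) F)) :
      Set (ProjectiveSpecialLinearGroup (Fin 2) F))).index := P.card_eq_index_normalizer
  have h2 := (normalizer ((P : Subgroup (ProjectiveSpecialLinearGroup (Fin 2) F)) :
    Set (ProjectiveSpecialLinearGroup (Fin 2) F))).card_mul_index
  rw [card_25 hF, ← h1, card_sylow_five hF] at h2
  omega

theorem field_cases {K : Type*} [Field K] [Fintype K] {m : ℕ} (h : Fintype.card K ^ m = 25) :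
    Fintype.card K = 5 ∨ Fintype.card K = 25 := by
  have hm : m ≠ 0 := by
    rintro rfl
    norm_num at h
  have h1 : Fintype.card K ∣ 5 ^ 2 := by
    rw [show (5 : ℕ) ^ 2 = 25 by norm_num, ← h]
    exact dvd_pow_self _ hm
  obtain ⟨i, hi, e⟩ := (Nat.dvd_prime_pow (by norm_num)).1 h1
  have h2 : 1 < Fintype.card K := Fintype.one_lt_card
  interval_cases i
  · rw [e] at h2
    norm_num at h2
  · exact Or.inl (by rw [e]; norm_num)
  · exact Or.inr (by rw [e]; norm_num)

theorem card_PSL_five {K : Type*} [Field K] [Fintype K] (h : Fintype.card K = 5) :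
    Nat.card (ProjectiveSpecialLinearGroup (Fin 2) K) = 60 := by
  have h1 := ClassicalGeometry.PSL2Basic.card_PSL2_odd (F := K) (by rw [h]; decide)
  rw [h] at h1
  omega

/-- **the orders of the subgroups of `PSL₂(25)`** -/
theorem card_cases (hF : Fintype.card F = 25) (K : Subgroup (ProjectiveSpecialLinearGroup (Fin 2) F)) :
    Nat.card K ∣ 26 ∨ Nat.card K ∣ 24 ∨ Nat.card K ∣ 300 ∨ Nat.card K ∣ 120 ∨ 7800 ≤ Nat.card K := by
  have h5 : Fact (Nat.Prime 5) := ⟨by norm_num⟩
  have := char_five hF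
  have hdih : ∀ k : ℕ, Nat.card (DihedralGroup k) = 2 * k := fun k => DihedralGroup.nat_card
  rcases Cfsg.Agent.S0799.result (F := F) hF 5 K with
    ⟨k, hk, ⟨-, hc⟩ | ⟨⟨e⟩⟩⟩ | ⟨P, B, hB, ⟨e⟩⟩ | ⟨⟨e⟩⟩ | ⟨⟨e⟩⟩ | ⟨⟨e⟩⟩ | ⟨K', _, _, m, hm, h⟩
  · rw [hc]
    rcases hk with hk | hk
    · exact Or.inl (hk.trans (by norm_num))
    · exact Or.inr (Or.inl (hk.trans (by norm_num)))
  · rw [Nat.card_congr e.toEquiv, hdih]
    rcases hk with hk | hk
    · exact Or.inl (Nat.mul_dvd_mul_left 2 (hk.trans (show (25 + 1) / Nat.gcd 2 (25 - 1) ∣ 13 by norm_num)))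
    · exact Or.inr (Or.inl (Nat.mul_dvd_mul_left 2 (hk.trans (show (25 - 1) / Nat.gcd 2 (25 - 1) ∣ 12 by norm_num))))
  · right; right; left
    rw [Nat.card_congr e.toEquiv, ← card_norm_five hF P]
    exact Subgroup.card_dvd_of_le hB
  · right; right; right; left
    rw [Nat.card_congr e.toEquiv, Nat.card_eq_fintype_card]
    decide
  · right; right; right; left
    rw [Nat.card_congr e.toEquiv, Nat.card_eq_fintype_card]
    decide
  · right; right; right; left
    rw [Nat.card_congr e.toEquiv, Nat.card_eq_fintype_card]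
    decide
  · right; right; right
    rcases field_cases hm with hc | hc
    · left
      rcases h with ⟨⟨e⟩⟩ | ⟨⟨e⟩⟩
      · rw [Nat.card_congr e.toEquiv, card_PSL_five hc]
        norm_num
      · rw [Nat.card_congr e.toEquiv, ClassicalGeometry.PSL2Basic.card_PGL2, hc]
        norm_num
    · right
      rcases h with ⟨⟨e⟩⟩ | ⟨⟨e⟩⟩
      · rw [Nat.card_congr e.toEquiv, card_25 hc]
      · rw [Nat.card_congr e.toEquiv, ClassicalGeometry.PSL2Basic.card_PGL2, hc]
        norm_num

/-- **the number of Sylow 13-subgroups** -/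
theorem card_sylow_thirteen (hF : Fintype.card F = 25) [Fact (Nat.Prime 13)] :
    Nat.card (Sylow 13 (ProjectiveSpecialLinearGroup (Fin 2) F)) = 300 := by
  classical
  have := simple_25 hF
  obtain ⟨P⟩ : Nonempty (Sylow 13 (ProjectiveSpecialLinearGroup (Fin 2) F)) := inferInstance
  have hfac : (Nat.card (ProjectiveSpecialLinearGroup (Fin 2) F)).factorization 13 = 1 := by
    rw [card_25 hF]
    have h1 : (7800 : ℕ) = 13 ^ 1 * 600 := by norm_num
    rw [h1, Nat.factorization_mul (by norm_num) (by norm_num), Nat.Prime.factorization_pow (by norm_num)]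
    simp [Nat.factorization_eq_zero_of_not_dvd (show ¬ 13 ∣ 600 by norm_num)]
  have hcP : Nat.card (P : Subgroup (ProjectiveSpecialLinearGroup (Fin 2) F)) = 13 := by
    rw [P.card_eq_multiplicity, hfac, pow_one]
  have h1 : Nat.card (Sylow 13 (ProjectiveSpecialLinearGroup (Fin 2) F)) =
    (normalizer ((P : Subgroup (ProjectiveSpecialLinearGroup (Fin 2) F)) :
      Set (ProjectiveSpecialLinearGroup (Fin 2) F))).index := P.card_eq_index_normalizer
  have h2 := (normalizer ((P : Subgroup (ProjectiveSpecialLinearGroup (Fin 2) F)) :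
    Set (ProjectiveSpecialLinearGroup (Fin 2) F))).card_mul_index
  rw [card_25 hF, ← h1] at h2
  have hle : (P : Subgroup (ProjectiveSpecialLinearGroup (Fin 2) F)) ≤
    normalizer ((P : Subgroup (ProjectiveSpecialLinearGroup (Fin 2) F)) : Set (ProjectiveSpecialLinearGroup (Fin 2) F)) :=
    le_normalizer
  obtain ⟨m, hm⟩ := Subgroup.card_dvd_of_le hle
  rw [hcP] at hm
  have hone : Nat.card (Sylow 13 (ProjectiveSpecialLinearGroup (Fin 2) F)) ≠ 1 := by
    intro h0
    rw [h0] at h1
    have h5 : normalizer ((P : Subgroup (ProjectiveSpecialLinearGroup (Fin 2) F)) :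
        Set (ProjectiveSpecialLinearGroup (Fin 2) F)) = ⊤ := Subgroup.index_eq_one.1 h1.symm
    have h6 : (P : Subgroup (ProjectiveSpecialLinearGroup (Fin 2) F)).Normal := Subgroup.normalizer_eq_top_iff.1 h5
    rcases h6.eq_bot_or_eq_top with h7 | h7
    · rw [h7, Subgroup.card_bot] at hcP
      norm_num at hcP
    · rw [h7, Subgroup.card_top, card_25 hF] at hcP
      norm_num at hcP
  have h4 : Nat.card (Sylow 13 (ProjectiveSpecialLinearGroup (Fin 2) F)) % 13 = 1 :=
    card_sylow_modEq_one 13 (ProjectiveSpecialLinearGroup (Fin 2) F)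
  have h5 := card_cases hF (normalizer ((P : Subgroup (ProjectiveSpecialLinearGroup (Fin 2) F)) :
      Set (ProjectiveSpecialLinearGroup (Fin 2) F)))
  rw [hm] at h2 h5
  have hk : ∀ n, ¬ 13 ∣ n → ¬ 13 * m ∣ n := fun n hn h => hn (Dvd.dvd.trans (Dvd.intro _ rfl) h)
  generalize Nat.card (Sylow 13 (ProjectiveSpecialLinearGroup (Fin 2) F)) = s at *
  rcases h5 with h5 | h5 | h5 | h5 | h5
  · have h6 : m ∣ 2 := Nat.dvd_of_mul_dvd_mul_left (by norm_num : 0 < 13) h5
    have h7 := Nat.le_of_dvd (by norm_num) h6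
    interval_cases m
    · omega
    · omega
    · omega
  · exact absurd h5 (hk _ (by norm_num))
  · exact absurd h5 (hk _ (by norm_num))
  · exact absurd h5 (hk _ (by norm_num))
  · exfalso
    apply hone
    have h6 : 600 ≤ m := by omega
    have h7 : m * s = 600 := by nlinarith
    have h8 : s ≠ 0 := by
      rintro rfl
      omega
    have h9 : s < 2 := by
      by_contra hcon
      have := Nat.mul_le_mul h6 (show 2 ≤ s by omega)
      omega
    omega

/-- a proper subgroup of order divisible by 13 has order at most 26 -/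
theorem le_26 (hF : Fintype.card F = 25) {K : Subgroup (ProjectiveSpecialLinearGroup (Fin 2) F)} (hK : K ≠ ⊤)
    (hd : 13 ∣ Nat.card K) : Nat.card K ≤ 26 := by
  rcases card_cases hF K with h | h | h | h | h
  · exact Nat.le_of_dvd (by norm_num) h
  · exact absurd (hd.trans h) (by norm_num)
  · exact absurd (hd.trans h) (by norm_num)
  · exact absurd (hd.trans h) (by norm_num)
  · exact absurd (Subgroup.eq_top_of_le_card K (by rw [card_25 hF]; exact h)) hK

/-- subgroups of order 13 of a proper subgroup -/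
theorem unique_13 (hF : Fintype.card F = 25) {K : Subgroup (ProjectiveSpecialLinearGroup (Fin 2) F)} (hK : K ≠ ⊤)
    {P P' : Subgroup (ProjectiveSpecialLinearGroup (Fin 2) F)} (hP : Nat.card P = 13) (hP' : Nat.card P' = 13)
    (h : P ≤ K) (h' : P' ≤ K) : P = P' := by
  classical
  have hd : 13 ∣ Nat.card K := by
    rw [← hP]
    exact Subgroup.card_dvd_of_le h
  have hle := le_26 hF hK hd
  by_contra hne
  have h13 : Nat.Prime 13 := by norm_num
  have h1 : P ⊓ P' = ⊥ := by
    have h2 : Nat.card (P ⊓ P' : Subgroup (ProjectiveSpecialLinearGroup (Fin 2) F)) ∣ 13 := by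
      rw [← hP]
      exact Subgroup.card_dvd_of_le inf_le_left
    rcases (Nat.dvd_prime h13).1 h2 with h3 | h3
    · exact Subgroup.card_eq_one.1 h3
    · exfalso
      apply hne
      have h4 : P ⊓ P' = P := Subgroup.eq_of_le_of_card_ge inf_le_left (by rw [h3, hP])
      have h5 : P ⊓ P' = P' := Subgroup.eq_of_le_of_card_ge inf_le_right (by rw [h3, hP'])
      rw [← h4]
      exact h5
  have h2 : Function.Injective (fun p : P × P' => (⟨(p.1 : ProjectiveSpecialLinearGroup (Fin 2) F) * p.2,
      K.mul_mem (h p.1.2) (h' p.2.2)⟩ : K)) := by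
    rintro ⟨a, b⟩ ⟨c, d⟩ e
    have e1 : (a : ProjectiveSpecialLinearGroup (Fin 2) F) * b = c * d := congrArg Subtype.val e
    have e2 : (c : ProjectiveSpecialLinearGroup (Fin 2) F)⁻¹ * a = d * (b : ProjectiveSpecialLinearGroup (Fin 2) F)⁻¹ := by
      rw [inv_mul_eq_iff_eq_mul, ← mul_assoc, ← e1, mul_inv_cancel_right]
    have e3 : (c : ProjectiveSpecialLinearGroup (Fin 2) F)⁻¹ * a ∈ P ⊓ P' := by
      refine ⟨P.mul_mem (P.inv_mem c.2) a.2, ?_⟩
      rw [e2]
      exact P'.mul_mem d.2 (P'.inv_mem b.2)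
    rw [h1, Subgroup.mem_bot] at e3
    have e4 : (c : ProjectiveSpecialLinearGroup (Fin 2) F) = a := inv_mul_eq_one.1 e3
    rw [e4] at e1
    exact Prod.ext (Subtype.ext e4.symm) (Subtype.ext (mul_left_cancel e1))
  have h3 := Nat.card_le_card_of_injective _ h2
  rw [Nat.card_prod, hP, hP'] at h3
  omega

theorem D4_center : ∀ x : DihedralGroup 4, (∀ y, x * y = y * x) → x = 1 ∨ x = DihedralGroup.r 2 := by decide

theorem D2_comm : ∀ x y : DihedralGroup 2, x * y = y * x := by decide

theorem D1_comm : ∀ x y : DihedralGroup 1, x * y = y * x := by decide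

/-- no admissible subgroup is dihedral of order 8 -/
theorem not_D4 (hF : Fintype.card F = 25) {K : Subgroup (ProjectiveSpecialLinearGroup (Fin 2) F)} (hK : Adm K)
    (e : K ≃* DihedralGroup 4) : False := by
  classical
  let z : K := e.symm (DihedralGroup.r 2)
  have hz1 : (z : ProjectiveSpecialLinearGroup (Fin 2) F) ≠ 1 := by
    intro h
    have h1 : z = 1 := Subtype.ext h
    have h2 : (DihedralGroup.r 2 : DihedralGroup 4) = 1 := by
      rw [← e.apply_symm_apply (DihedralGroup.r 2)]
      change e z = 1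
      rw [h1, map_one]
    revert h2
    decide
  have hz2 : z ^ 2 = 1 := by
    apply e.injective
    rw [map_pow, map_one, e.apply_symm_apply]
    decide
  have hzc : ∀ y : K, z * y = y * z := by
    intro y
    apply e.injective
    rw [map_mul, map_mul, e.apply_symm_apply]
    generalize e y = w
    revert w
    decide
  let X : Subgroup (ProjectiveSpecialLinearGroup (Fin 2) F) := (center K).map K.subtype
  have hX : ∀ x ∈ X, x = 1 ∨ x = (z : ProjectiveSpecialLinearGroup (Fin 2) F) := by
    rintro _ ⟨x, hx, rfl⟩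
    have h1 : ∀ y, e x * y = y * e x := by
      intro y
      have := (mem_center_iff.1 hx (e.symm y)).symm
      have h2 := congrArg e this
      rwa [map_mul, map_mul, e.apply_symm_apply] at h2
    rcases D4_center _ h1 with h2 | h2
    · left
      have : x = 1 := by
        rw [← e.symm_apply_apply x, h2, map_one]
      rw [this]
      rfl
    · right
      have : x = z := by
        rw [← e.symm_apply_apply x, h2]
      rw [this]
      rfl
  have hzX : (z : ProjectiveSpecialLinearGroup (Fin 2) F) ∈ X := ⟨z, mem_center_iff.2 fun y => (hzc y).symm, rfl⟩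
  have hcent : centralizer {(z : ProjectiveSpecialLinearGroup (Fin 2) F)} ≤ K := by
    intro g hg
    rw [mem_centralizer_singleton_iff] at hg
    refine hK.norm X ?_ ?_ ?_ g ?_
    · rintro _ ⟨x, -, rfl⟩
      exact x.2
    · intro h0
      rw [h0, mem_bot] at hzX
      exact hz1 hzX
    · rintro φ y ⟨x, hx, hxy⟩
      have : x = y := Subtype.ext hxy
      subst this
      refine ⟨φ x, mem_center_iff.2 fun g => ?_, rfl⟩
      have h1 := congrArg φ (mem_center_iff.1 hx (φ.symm g))
      rwa [map_mul, map_mul, MulEquiv.apply_symm_apply] at h1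
    · intro x hx
      rcases hX x hx with rfl | rfl
      · rw [mul_one, mul_inv_cancel]
        exact one_mem _
      · rw [hg, mul_inv_cancel_right]
        exact hx
  have hK8 : Nat.card K = 8 := by rw [Nat.card_congr e.toEquiv, DihedralGroup.nat_card]
  have h1 := Subgroup.card_le_of_le hcent
  rw [hK8] at h1
  -- the class of `z`
  have h2 : H742.EX.cG (z : ProjectiveSpecialLinearGroup (Fin 2) F) ≤ 650 := by
    have h3 := two_le (F := F)
    rw [hF] at h3
    refine le_trans ?_ h3
    change Nat.card ({y | IsConj (z : ProjectiveSpecialLinearGroup (Fin 2) F) y} : Set _) ≤ _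
    refine Set.ncard_le_ncard ?_ (Set.toFinite _)
    intro y hy
    obtain ⟨g, hg⟩ := isConj_iff.1 hy
    rw [← hg]
    refine ⟨fun h4 => hz1 (conj_eq_one_iff.1 h4), ?_⟩
    rw [conj_pow, ← Subgroup.coe_pow, hz2, Subgroup.coe_one, mul_one, mul_inv_cancel]
  have h3 := H742.EX.card_G (z : ProjectiveSpecialLinearGroup (Fin 2) F)
  have h4 : Nat.card {g : ProjectiveSpecialLinearGroup (Fin 2) F // g⁻¹ * z * g = z} ≤ 8 := by
    refine le_trans (Nat.card_le_card_of_injective (fun g => (⟨g.1, ?_⟩ : centralizer {(z :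
      ProjectiveSpecialLinearGroup (Fin 2) F)})) ?_) h1
    · rw [mem_centralizer_singleton_iff]
      have := g.2
      rw [mul_assoc, inv_mul_eq_iff_eq_mul] at this
      exact this.symm
    · intro a b hab
      have hab' := congrArg (fun q : centralizer {(z : ProjectiveSpecialLinearGroup (Fin 2) F)} =>
        (q : ProjectiveSpecialLinearGroup (Fin 2) F)) hab
      exact Subtype.ext hab'
  rw [card_25 hF] at h3
  have h5 := Nat.mul_le_mul h2 h4
  omega

theorem not_comm_25 (hF : Fintype.card F = 25) {K : Subgroup (ProjectiveSpecialLinearGroup (Fin 2) F)} (hK : Adm K)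
    {X : Type*} [Group X] (e : K ≃* X) (hX : ∀ x y : X, x * y = y * x) : False := by
  have := simple_25 hF
  refine hK.not_comm (ncomm_25 hF) fun a ha b hb => ?_
  have h1 : (⟨a, ha⟩ : K) * ⟨b, hb⟩ = ⟨b, hb⟩ * ⟨a, ha⟩ := by
    apply e.injective
    rw [map_mul, map_mul, hX]
  exact congrArg Subtype.val h1

/-- **The admissible subgroups of `PSL₂(25)`.** -/
theorem adm_25 (hF : Fintype.card F = 25) [Fact (Nat.Prime 5)] {K : Subgroup (ProjectiveSpecialLinearGroup (Fin 2) F)}
    (hK : Adm K) :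
    13 ∣ Nat.card K ∨
    (∃ P : Sylow 5 (ProjectiveSpecialLinearGroup (Fin 2) F), K = normalizer
      ((P : Subgroup (ProjectiveSpecialLinearGroup (Fin 2) F)) : Set (ProjectiveSpecialLinearGroup (Fin 2) F))) ∨
    (3 ∣ Nat.card K ∧ ¬ 25 ∣ Nat.card K) := by
  have := char_five hF
  have := simple_25 hF
  have hnc : ¬ ∀ a ∈ K, ∀ b ∈ K, a * b = b * a := hK.not_comm (ncomm_25 hF)
  have hdih : ∀ k : ℕ, Nat.card (DihedralGroup k) = 2 * k := fun k => DihedralGroup.nat_card
  rcases Cfsg.Agent.S0799.result (F := F) hF 5 K with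
    ⟨k, hk, ⟨hc, -⟩ | ⟨⟨e⟩⟩⟩ | ⟨P, B, hB, ⟨e⟩⟩ | ⟨⟨e⟩⟩ | ⟨⟨e⟩⟩ | ⟨⟨e⟩⟩ | ⟨K', _, _, m, hm, h⟩
  · exfalso
    apply hnc
    intro a ha b hb
    exact congrArg Subtype.val (hc.isMulCommutative.is_comm.comm (⟨a, ha⟩ : K) ⟨b, hb⟩)
  · rw [Nat.card_congr e.toEquiv, hdih]
    rcases hk with hk | hk
    · have hk' : k ∣ 13 := hk.trans (by norm_num)
      rcases (Nat.dvd_prime (by norm_num)).1 hk' with rfl | rfl
      · exact (not_comm_25 hF hK e D1_comm).elim
      · left
        norm_num
    · right; right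
      have hk' : k ∣ 12 := hk.trans (by norm_num)
      have hle := Nat.le_of_dvd (by norm_num) hk'
      interval_cases k
      · norm_num at hk'
      · exact (not_comm_25 hF hK e D1_comm).elim
      · exact (not_comm_25 hF hK e D2_comm).elim
      · norm_num
      · exact (not_D4 hF hK e).elim
      · norm_num at hk'
      · norm_num
      · norm_num at hk'
      · norm_num at hk'
      · norm_num at hk'
      · norm_num at hk'
      · norm_num at hk'
      · norm_num
  · exact Or.inr (Or.inl (borel hK hnc 5 P hB e))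
  · right; right
    rw [Nat.card_congr e.toEquiv, Nat.card_eq_fintype_card]
    decide
  · right; right
    rw [Nat.card_congr e.toEquiv, Nat.card_eq_fintype_card]
    decide
  · right; right
    rw [Nat.card_congr e.toEquiv, Nat.card_eq_fintype_card]
    decide
  · rcases field_cases hm with hc | hc
    · right; right
      rcases h with ⟨⟨e⟩⟩ | ⟨⟨e⟩⟩
      · rw [Nat.card_congr e.toEquiv, card_PSL_five hc]
        norm_num
      · rw [Nat.card_congr e.toEquiv, ClassicalGeometry.PSL2Basic.card_PGL2, hc]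
        norm_num
    · exfalso
      apply hK.ne_top
      exact H948.PSLMax.eq_top_of_card_eq K (by rw [hc, hF]) h

end PSL

end Cfsg.Agent.H545.EX.LTwo
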